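import Cfsg.Agent.H830.Rg.HexA
import Cfsg.Agent.H445.AH.OTrans

/-!
# S3691, `Ω₇(q)`: all unipotent elements of type `(3, 3, 1)` (helper830)

* `Tup Q x w y z α β` : the relations for `siegel x w * siegel y z` with orthogonal `w`, `z` of norms `α`, `β`
* `tup_trans` : transitivity of `E Q` up to a scalar
* `tup_conj` : the elements of two tuples with the same norms are conjugate in `E Q`
* `conj331` : `siegel u w * siegel u' w'` is determined up to `E Q`-conjugacy by the class of its discriminant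
-/

set_option autoImplicit false
set_option linter.unusedSectionVars false

namespace Cfsg.Agent.H830.Hex

open QuadraticMap Cfsg.Agent.LieClassical.OrthCore Cfsg.Agent.LieClassical.OrthTrans
  Cfsg.Agent.LieClassical.OrthSimple Cfsg.Agent.H883.Sub Cfsg.Agent.H883.Root Cfsg.Agent.H916.QuadLemmas

variable {F V : Type*} [Field F] [AddCommGroup V] [Module F V] {Q : QuadraticForm F V}

/-- the relations of the element `siegel x w * siegel y z` with orthogonal second vectors -/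
structure Tup (Q : QuadraticForm F V) (x w y z : V) (α β : F) : Prop where
  qx : Q x = 0
  qy : Q y = 0
  xy : polar Q x y = 0
  xw : polar Q x w = 0
  xz : polar Q x z = 0
  yw : polar Q y w = 0
  yz : polar Q y z = 0
  wz : polar Q w z = 0
  qw : Q w = α
  qz : Q z = β
  ind : ∀ l : F, y ≠ l • x
  x0 : x ≠ 0

/-- the orthogonal space of a nonsingular vector in a nondegenerate subspace -/
theorem nondegOn_inf_ker {Y : Submodule F V} (hY : NondegOn Q Y) {s : V} (hs : s ∈ Y) (hss : polar Q s s ≠ 0) :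
    NondegOn Q (Y ⊓ LinearMap.ker (polarBilin Q s)) := by
  intro v hv hv'
  refine hY v hv.1 fun t ht => ?_
  have hvs : polar Q v s = 0 := by rw [polar_comm]; exact hv.2
  have h1 := hv' (t + (-(polar Q s t * (polar Q s s)⁻¹)) • s) ⟨Y.add_mem ht (Y.smul_mem _ hs), by
    show polar Q s _ = 0
    rw [polar_add_right, polar_smul_right, smul_eq_mul]
    field_simp
    ring⟩
  rw [polar_add_right, polar_smul_right, hvs, smul_zero, add_zero] at h1
  exact h1

/-- the orthogonal space of a hyperbolic pair in a nondegenerate subspace -/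
theorem nondegOn_inf_cp {Y : Submodule F V} (hY : NondegOn Q Y) {a b : V} (ha : a ∈ Y) (hb : b ∈ Y) (h : Hyp Q a b) :
    NondegOn Q (Y ⊓ cp Q a b) := by
  intro v hv hv'
  have hv2 := mem_cp.1 hv.2
  refine hY v hv.1 fun t ht => ?_
  have h1 := hv' (proj Q a b t) ⟨Y.sub_mem (Y.sub_mem ht (Y.smul_mem _ ha)) (Y.smul_mem _ hb),
    mem_cp.2 ⟨polar_proj_left h _, polar_proj_right h _⟩⟩
  rwa [polar_proj_of_perp hv2.1 hv2.2] at h1

/-- a partner of a singular vector in a nondegenerate subspace -/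
theorem exists_partner' {Y : Submodule F V} (hY : NondegOn Q Y) {x : V} (hxY : x ∈ Y) (hx : Q x = 0) (hx0 : x ≠ 0) :
    ∃ y ∈ Y, Hyp Q x y := by
  obtain ⟨t, htY, ht⟩ := hY.exists_polar_eq hxY hx0 1
  refine ⟨t + (-Q t) • x, Y.add_mem htY (Y.smul_mem _ hxY), hx, ?_, ?_⟩
  · rw [Q_add, QuadraticMap.map_smul, hx, polar_smul_right, polar_comm Q t x, ht]; simp
  · rw [polar_add_right, polar_smul_right, ht, polar_self_of_sing hx]; simp

variable [Finite F] [FiniteDimensional F V]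

/-- **transitivity of `E Q` on the tuples, up to a scalar** -/
theorem tup_trans (hG : Good Q) (h2 : (2 : F) ≠ 0) (h7 : 7 ≤ Module.finrank F V) {x w y z x₁ w₁ y₁ z₁ : V} {α β : F}
    (hα : α ≠ 0) (hβ : β ≠ 0) (h : Tup Q x w y z α β) (h₁ : Tup Q x₁ w₁ y₁ z₁ α β) :
    ∃ g ∈ E Q, ∃ μ : F, μ ≠ 0 ∧ g x = x₁ ∧ g w = w₁ ∧ g y = μ • y₁ ∧ g z = z₁ := by
  have hne : ∀ {t : V}, Q t ≠ 0 → t ≠ 0 := by
    rintro t ht rfl
    exact ht (QuadraticMap.map_zero Q)
  have hw0 : Q w ≠ 0 := by rw [h.qw]; exact hα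
  have hw₁0 : Q w₁ ≠ 0 := by rw [h₁.qw]; exact hα
  have hz0 : Q z ≠ 0 := by rw [h.qz]; exact hβ
  have hz₁0 : Q z₁ ≠ 0 := by rw [h₁.qz]; exact hβ
  obtain ⟨g1, hg1, e1⟩ := hG.trans_norm (hne hw0) (hne hw₁0) (by rw [h.qw, h₁.qw])
  have hg1O := E_le_O hg1
  -- the orthogonal space of `w₁`
  have hTop : NondegOn Q (⊤ : Submodule F V) := fun v _ hv' => hG.nondeg v fun t => hv' t trivial
  set Y1 := (⊤ : Submodule F V) ⊓ LinearMap.ker (polarBilin Q w₁) with hY1
  have hN1 : NondegOn Q Y1 := nondegOn_inf_ker hTop trivial (by rw [polar_self']; exact mul_ne_zero h2 hw₁0)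
  have hd1 : 6 ≤ Module.finrank F Y1 := by
    have k1 := H445.AH.finrank_inf_polar (Q := Q) (⊤ : Submodule F V) w₁
    rw [← hY1, finrank_top] at k1
    omega
  have mz1 : z₁ ∈ Y1 := ⟨trivial, h₁.wz⟩
  have mz : g1 z ∈ Y1 := ⟨trivial, by show polar Q w₁ (g1 z) = 0; rw [← e1, polar_map hg1O]; exact h.wz⟩
  obtain ⟨g2, hg2, e2⟩ := EY_trans_norm (good_res hN1 (by omega)) mz mz1
    (by rw [mem_O.1 hg1O, h.qz, h₁.qz]) (hne (by rw [mem_O.1 hg1O]; exact hz0)) (hne hz₁0)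
  have hg2O := E_le_O (EY_le_E hg2)
  have fw2 : g2 w₁ = w₁ := EY_fix hg2 fun y hy => by rw [polar_comm]; exact hy.2
  -- the orthogonal space of `w₁`, `z₁`
  set Y2 := Y1 ⊓ LinearMap.ker (polarBilin Q z₁) with hY2
  have hN2 : NondegOn Q Y2 := nondegOn_inf_ker hN1 mz1 (by rw [polar_self']; exact mul_ne_zero h2 hz₁0)
  have hd2 : 5 ≤ Module.finrank F Y2 := by
    have k1 := H445.AH.finrank_inf_polar (Q := Q) Y1 z₁
    rw [← hY2] at k1
    omega
  set k := g2 * g1 with hk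
  have hkO : k ∈ O Q := (O Q).mul_mem hg2O hg1O
  have kw : k w = w₁ := by show g2 (g1 w) = _; rw [e1, fw2]
  have kz : k z = z₁ := e2
  have mem2 : ∀ t, polar Q w t = 0 → polar Q z t = 0 → k t ∈ Y2 := by
    intro t h1 h3
    refine ⟨⟨trivial, ?_⟩, ?_⟩
    · show polar Q w₁ (k t) = 0
      rw [← kw, polar_map hkO]; exact h1
    · show polar Q z₁ (k t) = 0
      rw [← kz, polar_map hkO]; exact h3
  have mx : k x ∈ Y2 := mem2 x (by rw [polar_comm]; exact h.xw) (by rw [polar_comm]; exact h.xz)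
  have my : k y ∈ Y2 := mem2 y (by rw [polar_comm]; exact h.yw) (by rw [polar_comm]; exact h.yz)
  have mx₁ : x₁ ∈ Y2 := ⟨⟨trivial, by show polar Q w₁ x₁ = 0; rw [polar_comm]; exact h₁.xw⟩,
    by show polar Q z₁ x₁ = 0; rw [polar_comm]; exact h₁.xz⟩
  have my₁ : y₁ ∈ Y2 := ⟨⟨trivial, by show polar Q w₁ y₁ = 0; rw [polar_comm]; exact h₁.yw⟩,
    by show polar Q z₁ y₁ = 0; rw [polar_comm]; exact h₁.yz⟩
  have swap_ind : ∀ {x y : V}, x ≠ 0 → (∀ l : F, y ≠ l • x) → ∀ l : F, x ≠ l • y := by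
    intro x y hx hxy l hl
    have hl0 : l ≠ 0 := by rintro rfl; exact hx (by rw [hl, zero_smul])
    exact hxy l⁻¹ (by rw [hl, smul_smul, inv_mul_cancel₀ hl0, one_smul])
  have qkx : Q (k x) = 0 := by rw [mem_O.1 hkO]; exact h.qx
  have qky : Q (k y) = 0 := by rw [mem_O.1 hkO]; exact h.qy
  have kxy : polar Q (k x) (k y) = 0 := by rw [polar_map hkO]; exact h.xy
  obtain ⟨b, mb, hb, hb'⟩ := exists_partner hN2 mx my qkx (fun l hl => swap_ind h.x0 h.ind l
    (k.injective (by rw [hl, map_smul]))) kxy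
  obtain ⟨b₁, mb₁, hb₁, hb₁'⟩ := exists_partner hN2 mx₁ my₁ h₁.qx (swap_ind h₁.x0 h₁.ind) h₁.xy
  obtain ⟨g3, hg3, e3, e4⟩ := EY_trans_hyp (good_res hN2 hd2) mx mb mx₁ mb₁ hb hb₁
  have hg3O := E_le_O (EY_le_E hg3)
  have fw3 : g3 w₁ = w₁ := EY_fix hg3 fun y hy => by rw [polar_comm]; exact hy.1.2
  have fz3 : g3 z₁ = z₁ := EY_fix hg3 fun y hy => by rw [polar_comm]; exact hy.2
  -- the last step
  set Y3 := Y2 ⊓ cp Q x₁ b₁ with hY3
  have hN3 : NondegOn Q Y3 := nondegOn_inf_cp hN2 mx₁ mb₁ hb₁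
  have hd3 : 3 ≤ Module.finrank F Y3 := by
    have k2 := finrank_cp hG.nondeg x₁ b₁
    have k3 := Submodule.finrank_sup_add_finrank_inf_eq Y2 (cp Q x₁ b₁)
    have k4 := Submodule.finrank_le (Y2 ⊔ cp Q x₁ b₁)
    rw [← hY3] at k3
    omega
  have my3 : g3 (k y) ∈ Y3 := by
    refine ⟨⟨⟨trivial, ?_⟩, ?_⟩, mem_cp.2 ⟨?_, ?_⟩⟩
    · show polar Q w₁ _ = 0
      rw [← fw3, polar_map hg3O]; exact my.1.2
    · show polar Q z₁ _ = 0
      rw [← fz3, polar_map hg3O]; exact my.2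
    · rw [← e3, polar_map hg3O]; exact kxy
    · rw [← e4, polar_map hg3O, polar_comm]; exact hb'
  have my₁3 : y₁ ∈ Y3 := ⟨my₁, mem_cp.2 ⟨h₁.xy, by rw [polar_comm]; exact hb₁'⟩⟩
  have y0 : y ≠ 0 := fun hc => h.ind 0 (by rw [hc, zero_smul])
  have y₁0 : y₁ ≠ 0 := fun hc => h₁.ind 0 (by rw [hc, zero_smul])
  have qgy : Q (g3 (k y)) = 0 := by rw [mem_O.1 hg3O]; exact qky
  obtain ⟨g4, hg4, μ, hμ, e5, hfix⟩ := point_trans hN3 hd3 my3 my₁3 qgy h₁.qy
    (fun h0 => y0 (k.injective (g3.injective (by rw [h0, map_zero, map_zero])))) y₁0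
  refine ⟨g4 * g3 * k, E_mul (E_mul hg4 (EY_le_E hg3)) (E_mul (EY_le_E hg2) hg1), μ, hμ, ?_, ?_, ?_, ?_⟩
  · show g4 (g3 (k x)) = _
    rw [e3]
    exact hfix _ fun t ht => by rw [polar_comm]; exact (mem_cp.1 ht.2).1
  · show g4 (g3 (k w)) = _
    rw [kw, fw3]
    exact hfix _ fun t ht => by rw [polar_comm]; exact ht.1.1.2
  · show g4 (g3 (k y)) = _
    exact e5
  · show g4 (g3 (k z)) = _
    rw [kz, fz3]
    exact hfix _ fun t ht => by rw [polar_comm]; exact ht.1.2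

/-- partners of the vectors of a tuple -/
theorem tup_partner (hG : Good Q) (h2 : (2 : F) ≠ 0) {x w y z : V} {α β : F} (hα : α ≠ 0) (hβ : β ≠ 0)
    (h : Tup Q x w y z α β) : ∃ x' y', Hyp Q x x' ∧ Hyp Q y y' ∧ polar Q x y' = 0 ∧ polar Q y x' = 0 ∧ polar Q x' y' = 0 ∧
      polar Q w x' = 0 ∧ polar Q w y' = 0 ∧ polar Q z x' = 0 ∧ polar Q z y' = 0 := by
  have hw0 : Q w ≠ 0 := by rw [h.qw]; exact hα
  have hz0 : Q z ≠ 0 := by rw [h.qz]; exact hβ
  have hTop : NondegOn Q (⊤ : Submodule F V) := fun v _ hv' => hG.nondeg v fun t => hv' t trivial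
  set Y1 := (⊤ : Submodule F V) ⊓ LinearMap.ker (polarBilin Q w) with hY1
  have hN1 : NondegOn Q Y1 := nondegOn_inf_ker hTop trivial (by rw [polar_self']; exact mul_ne_zero h2 hw0)
  set Y2 := Y1 ⊓ LinearMap.ker (polarBilin Q z) with hY2
  have hN2 : NondegOn Q Y2 := nondegOn_inf_ker hN1 ⟨trivial, h.wz⟩ (by rw [polar_self']; exact mul_ne_zero h2 hz0)
  have mx : x ∈ Y2 := ⟨⟨trivial, by show polar Q w x = 0; rw [polar_comm]; exact h.xw⟩,
    by show polar Q z x = 0; rw [polar_comm]; exact h.xz⟩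
  have my : y ∈ Y2 := ⟨⟨trivial, by show polar Q w y = 0; rw [polar_comm]; exact h.yw⟩,
    by show polar Q z y = 0; rw [polar_comm]; exact h.yz⟩
  have hind : ∀ l : F, x ≠ l • y := by
    intro l hl
    have hl0 : l ≠ 0 := by rintro rfl; exact h.x0 (by rw [hl, zero_smul])
    exact h.ind l⁻¹ (by rw [hl, smul_smul, inv_mul_cancel₀ hl0, one_smul])
  obtain ⟨x', mx', hx', hyx'⟩ := exists_partner hN2 mx my h.qx hind h.xy
  have hN3 := nondegOn_inf_cp hN2 mx mx' hx'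
  have my3 : y ∈ Y2 ⊓ cp Q x x' := ⟨my, mem_cp.2 ⟨h.xy, by rw [polar_comm]; exact hyx'⟩⟩
  have y0 : y ≠ 0 := fun hc => h.ind 0 (by rw [hc, zero_smul])
  obtain ⟨y', my', hy'⟩ := exists_partner' hN3 my3 h.qy y0
  have k1 := mem_cp.1 my'.2
  exact ⟨x', y', hx', hy', k1.1, hyx', k1.2, mx'.1.2, my'.1.1.2, mx'.2, my'.1.2⟩

/-- multiplication of `y` by a square -/
theorem sq_step (hG : Good Q) (h2 : (2 : F) ≠ 0) {x w y z : V} {α β : F} (hα : α ≠ 0) (hβ : β ≠ 0)
    (h : Tup Q x w y z α β) {ν : F} (hν : ν ≠ 0) : ∃ e ∈ E Q, e x = x ∧ e w = w ∧ e y = (ν * ν) • y ∧ e z = z := by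
  obtain ⟨x', y', hx', hy', xy', yx', -, wx', wy', zx', zy'⟩ := tup_partner hG h2 hα hβ h
  have yx : polar Q y x = 0 := by rw [polar_comm]; exact h.xy
  have y'x : polar Q y' x = 0 := by rw [polar_comm]; exact xy'
  have y'w : polar Q y' w = 0 := by rw [polar_comm]; exact wy'
  have y'z : polar Q y' z = 0 := by rw [polar_comm]; exact zy'
  have n1 : Q (y + y') = 1 := by rw [Q_add, hy'.left, hy'.right, hy'.pair]; simp
  have n2 : Q (ν⁻¹ • y + ν • y') = 1 := by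
    rw [Q_add, QuadraticMap.map_smul, QuadraticMap.map_smul, hy'.left, hy'.right, polar_smul_left, polar_smul_right, hy'.pair]
    simp [hν]
  have z1 : Q (y + y') ≠ 0 := by rw [n1]; exact one_ne_zero
  have z2 : Q (ν⁻¹ • y + ν • y') ≠ 0 := by rw [n2]; exact one_ne_zero
  have fix : ∀ v, polar Q y v = 0 → polar Q y' v = 0 → refl Q _ z1 (refl Q _ z2 v) = v := by
    intro v h1 h3
    have k2 : refl Q _ z2 v = v := by
      rw [refl_apply, polar_add_left, polar_smul_left, polar_smul_left, h1, h3]; simp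
    have k1 : refl Q _ z1 v = v := by
      rw [refl_apply, polar_add_left, h1, h3]; simp
    rw [k2, k1]
  refine ⟨refl Q _ z1 * refl Q _ z2, hG.refl_mul_refl_mem z2 z1 (by rw [n1, n2]), fix x yx y'x, fix w h.yw y'w, ?_, fix z h.yz y'z⟩
  show refl Q _ z1 (refl Q _ z2 y) = _
  have k2 : refl Q _ z2 y = (-(ν * ν)) • y' := by
    rw [refl_apply, n2, polar_add_left, polar_smul_left, polar_smul_left, hy'.polar_left, hy'.pair']
    match_scalars <;> field_simp <;> simp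
  have k1 : refl Q _ z1 ((-(ν * ν)) • y') = (ν * ν) • y := by
    rw [refl_apply, n1, polar_smul_right, polar_add_left, hy'.polar_right, hy'.pair]
    match_scalars <;> field_simp <;> simp
  rw [k2, k1]

end Cfsg.Agent.H830.Hex
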