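import Cfsg.Agent.H830.Rg.HexD

/-!
# S3691, `Ω₇(q)`: all unipotent elements of type `(3, 3, 1)`, second part (helper830)
-/

set_option autoImplicit false
set_option linter.unusedSectionVars false

namespace Cfsg.Agent.H830.Hex

open QuadraticMap Cfsg.Agent.LieClassical.OrthCore Cfsg.Agent.LieClassical.OrthTrans
  Cfsg.Agent.LieClassical.OrthSimple Cfsg.Agent.H883.Sub Cfsg.Agent.H883.Root Cfsg.Agent.H916.QuadLemmas

variable {F V : Type*} [Field F] [AddCommGroup V] [Module F V] {Q : QuadraticForm F V}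

/-- the element of a tuple in rotated coordinates -/
theorem rot_eq {x w y z : V} {α β a b k : F} (h : Tup Q x w y z α β) (hk : k * α = β) (hab : a * a + k * (b * b) = 1)
    {x₀ w₀ y₀ z₀ : V} (ex : x₀ = a • x + (k * b) • y) (ew : w₀ = a • w + b • z) (ey : y₀ = (-b) • x + a • y)
    (ez : z₀ = (-(k * b)) • w + a • z) (hx₀ : Q x₀ = 0) (hxw₀ : polar Q x₀ w₀ = 0) (hy₀ : Q y₀ = 0)
    (hyz₀ : polar Q y₀ z₀ = 0) :
    siegel Q x w h.qx h.xw * siegel Q y z h.qy h.yz = siegel Q x₀ w₀ hx₀ hxw₀ * siegel Q y₀ z₀ hy₀ hyz₀ := by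
  have hww : polar Q w w = 2 * α := by rw [polar_self', h.qw]
  have hzz : polar Q z z = 2 * β := by rw [polar_self', h.qz]
  have hzw : polar Q z w = 0 := by rw [polar_comm]; exact h.wz
  have hwx : polar Q w x = 0 := by rw [polar_comm]; exact h.xw
  have hwy : polar Q w y = 0 := by rw [polar_comm]; exact h.yw
  have hzx : polar Q z x = 0 := by rw [polar_comm]; exact h.xz
  have hzy : polar Q z y = 0 := by rw [polar_comm]; exact h.yz
  have hyx : polar Q y x = 0 := by rw [polar_comm]; exact h.xy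
  have hxx : polar Q x x = 0 := polar_self_of_sing h.qx
  have hyy : polar Q y y = 0 := polar_self_of_sing h.qy
  have qw₀ : Q w₀ = α := by
    rw [ew, Q_add, QuadraticMap.map_smul, QuadraticMap.map_smul, polar_smul_left, polar_smul_right, h.qw, h.qz, h.wz]
    simp only [smul_eq_mul]
    linear_combination α * hab - b * b * hk
  have qz₀ : Q z₀ = β := by
    rw [ez, Q_add, QuadraticMap.map_smul, QuadraticMap.map_smul, polar_smul_left, polar_smul_right, h.qw, h.qz, h.wz]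
    simp only [smul_eq_mul]
    linear_combination β * hab + k * (b * b) * hk
  ext v
  show siegel Q x w h.qx h.xw (siegel Q y z h.qy h.yz v) = siegel Q x₀ w₀ hx₀ hxw₀ (siegel Q y₀ z₀ hy₀ hyz₀ v)
  simp only [siegel_apply, polar_add_right, polar_sub_right, polar_smul_right, qw₀, qz₀, h.qw, h.qz, smul_eq_mul, h.xy,
    h.xz, h.wz, hwy]
  have p1 : polar Q x₀ z₀ = 0 := by
    rw [ex, ez]
    simp only [polar_add_left, polar_add_right, polar_smul_left, polar_smul_right, h.xw, h.xz, h.yw, h.yz, smul_eq_mul]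
    ring
  have p2 : polar Q x₀ y₀ = 0 := by
    rw [ex, ey]
    simp only [polar_add_left, polar_add_right, polar_smul_left, polar_smul_right, hxx, h.xy, hyx, hyy, smul_eq_mul]
    ring
  have p3 : polar Q w₀ z₀ = 0 := by
    rw [ew, ez]
    simp only [polar_add_left, polar_add_right, polar_smul_left, polar_smul_right, hww, h.wz, hzw, hzz, smul_eq_mul]
    linear_combination (-2 * a * b) * hk
  have p4 : polar Q w₀ y₀ = 0 := by
    rw [ew, ey]
    simp only [polar_add_left, polar_add_right, polar_smul_left, polar_smul_right, hwx, hwy, hzx, hzy, smul_eq_mul]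
    ring
  rw [p1, p2, p3, p4]
  have v1 : polar Q x₀ v = a * polar Q x v + (k * b) * polar Q y v := by
    rw [ex, polar_add_left, polar_smul_left, polar_smul_left]; rfl
  have v2 : polar Q w₀ v = a * polar Q w v + b * polar Q z v := by
    rw [ew, polar_add_left, polar_smul_left, polar_smul_left]; rfl
  have v3 : polar Q y₀ v = (-b) * polar Q x v + a * polar Q y v := by
    rw [ey, polar_add_left, polar_smul_left, polar_smul_left]; rfl
  have v4 : polar Q z₀ v = (-(k * b)) * polar Q w v + a * polar Q z v := by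
    rw [ez, polar_add_left, polar_smul_left, polar_smul_left]; rfl
  rw [v1, v2, v3, v4, ex, ew, ey, ez]
  match_scalars
  · ring
  · linear_combination (-polar Q y v) * hab
  · linear_combination (polar Q z v + β * polar Q y v) * hab + (polar Q x v * a * b + polar Q y v * k * b * b) * hk
  · linear_combination (-polar Q x v) * hab
  · linear_combination (polar Q w v + α * polar Q x v) * hab + (-(polar Q x v * b * b) + polar Q y v * a * b) * hk

variable [Finite F] [FiniteDimensional F V]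

/-- **the rotation step** -/
theorem rot_step (hG : Good Q) (h2 : (2 : F) ≠ 0) {x w y z : V} {α β : F} (hα : α ≠ 0) (hβ : β ≠ 0)
    (h : Tup Q x w y z α β) {a b k : F} (hk : k * α = β) (hab : a * a + k * (b * b) = 1) (hb : b ≠ 0)
    (hy' : Q ((2 * (1 + a)) • y) = 0) (hyz' : polar Q ((2 * (1 + a)) • y) z = 0) :
    ∃ e ∈ E Q, e * (siegel Q x w h.qx h.xw * siegel Q y z h.qy h.yz) * e⁻¹ =
      siegel Q x w h.qx h.xw * siegel Q ((2 * (1 + a)) • y) z hy' hyz' := by
  obtain ⟨x', y', hxx', hyy', xy', yx', x'y', wx', wy', zx', zy'⟩ := tup_partner hG h2 hα hβ h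
  have hk0 : k ≠ 0 := by rintro rfl; exact hβ (by rw [← hk, zero_mul])
  have hkb : k * b ≠ 0 := mul_ne_zero hk0 hb
  have h1a : 1 + a ≠ 0 := by
    intro h0
    have h3 : k * (b * b) = 0 := by linear_combination hab + (1 - a) * h0
    exact mul_ne_zero hk0 (mul_ne_zero hb hb) h3
  have yx : polar Q y x = 0 := by rw [polar_comm]; exact h.xy
  have y'x : polar Q y' x = 0 := by rw [polar_comm]; exact xy'
  have x'y : polar Q x' y = 0 := by rw [polar_comm]; exact yx'
  have y'x' : polar Q y' x' = 0 := by rw [polar_comm]; exact x'y'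
  have y'w : polar Q y' w = 0 := by rw [polar_comm]; exact wy'
  have y'z : polar Q y' z = 0 := by rw [polar_comm]; exact zy'
  have x'w : polar Q x' w = 0 := by rw [polar_comm]; exact wx'
  have x'z : polar Q x' z = 0 := by rw [polar_comm]; exact zx'
  have wx : polar Q w x = 0 := by rw [polar_comm]; exact h.xw
  have wy : polar Q w y = 0 := by rw [polar_comm]; exact h.yw
  have zx : polar Q z x = 0 := by rw [polar_comm]; exact h.xz
  have zy : polar Q z y = 0 := by rw [polar_comm]; exact h.yz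
  have zw : polar Q z w = 0 := by rw [polar_comm]; exact h.wz
  have xx : polar Q x x = 0 := hxx'.polar_left
  have yy : polar Q y y = 0 := hyy'.polar_left
  have ww : polar Q w w = 2 * α := by rw [polar_self', h.qw]
  have zz : polar Q z z = 2 * β := by rw [polar_self', h.qz]
  -- the rotation of `⟨x, y⟩`
  obtain ⟨p, hp⟩ : ∃ p, p = (a - 1) * (k * b)⁻¹ := ⟨_, rfl⟩
  have hp1 : p * (k * b) = a - 1 := by rw [hp, mul_assoc, inv_mul_cancel₀ hkb, mul_one]
  have hp2 : p * (a + 1) = -b := by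
    apply mul_right_cancel₀ hkb
    linear_combination (a + 1) * hp1 + hab
  have hxu : polar Q x ((-p) • y') = 0 := by rw [polar_smul_right, xy', smul_zero]
  have hyl : polar Q y ((-(k * b)) • x') = 0 := by rw [polar_smul_right, yx', smul_zero]
  have qy0 : Q ((-p) • y') = 0 := by rw [QuadraticMap.map_smul, hyy'.right, smul_zero]
  have qx0 : Q ((-(k * b)) • x') = 0 := by rw [QuadraticMap.map_smul, hxx'.right, smul_zero]
  obtain ⟨U, hU⟩ : ∃ U, U = siegel Q x ((-p) • y') h.qx hxu := ⟨_, rfl⟩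
  obtain ⟨L, hL⟩ : ∃ L, L = siegel Q y ((-(k * b)) • x') h.qy hyl := ⟨_, rfl⟩
  have Ux : U x = x := by
    rw [hU, siegel_apply, qy0, polar_smul_left, y'x, xx]; simp
  have Uy : U y = y + p • x := by
    rw [hU, siegel_apply, qy0, polar_smul_left, hyy'.pair', h.xy]
    match_scalars <;> simp
  have Lx : L x = x + (k * b) • y := by
    rw [hL, siegel_apply, qx0, polar_smul_left, hxx'.pair', yx]
    match_scalars <;> simp
  have Ly : L y = y := by
    rw [hL, siegel_apply, qx0, polar_smul_left, x'y, yy]; simp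
  have Uw : U w = w := by
    rw [hU, siegel_apply, qy0, polar_smul_left, y'w, h.xw]; simp
  have Uz : U z = z := by
    rw [hU, siegel_apply, qy0, polar_smul_left, y'z, h.xz]; simp
  have Lw : L w = w := by
    rw [hL, siegel_apply, qx0, polar_smul_left, x'w, h.yw]; simp
  have Lz : L z = z := by
    rw [hL, siegel_apply, qx0, polar_smul_left, x'z, h.yz]; simp
  have UE : U ∈ E Q := by rw [hU]; exact siegel_mem_E _ _
  have LE : L ∈ E Q := by rw [hL]; exact siegel_mem_E _ _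
  obtain ⟨x₀, ex⟩ : ∃ x₀, x₀ = a • x + (k * b) • y := ⟨_, rfl⟩
  obtain ⟨y₀, ey⟩ : ∃ y₀, y₀ = (-b) • x + a • y := ⟨_, rfl⟩
  obtain ⟨w₀, ew⟩ : ∃ w₀, w₀ = a • w + b • z := ⟨_, rfl⟩
  obtain ⟨z₀, ez⟩ : ∃ z₀, z₀ = (-(k * b)) • w + a • z := ⟨_, rfl⟩
  have Px : (U * L * U) x = x₀ := by
    show U (L (U x)) = _
    rw [Ux, Lx, map_add, map_smul, Ux, Uy, ex]
    match_scalars
    · linear_combination hp1
    · ring
  have Py : (U * L * U) y = y₀ := by
    show U (L (U y)) = _
    rw [Uy, map_add, map_smul, Ly, Lx, map_add, map_smul, map_add, map_smul, Ux, Uy, ey]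
    match_scalars
    · linear_combination hp1
    · linear_combination p * hp1 + hp2
  have Pw : (U * L * U) w = w := by
    show U (L (U w)) = _
    rw [Uw, Lw, Uw]
  have Pz : (U * L * U) z = z := by
    show U (L (U z)) = _
    rw [Uz, Lz, Uz]
  -- the reflections
  have Qm : Q ((1 + a) • w + b • z) = 2 * (1 + a) * α := by
    rw [Q_add, QuadraticMap.map_smul, QuadraticMap.map_smul, polar_smul_left, polar_smul_right, h.qw, h.qz, h.wz]
    simp only [smul_eq_mul]
    linear_combination α * hab - b * b * hk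
  have hm0 : 2 * (1 + a) * α ≠ 0 := mul_ne_zero (mul_ne_zero h2 h1a) hα
  have n1 : Q (y + α • y') = α := by
    rw [Q_add, QuadraticMap.map_smul, hyy'.left, hyy'.right, polar_smul_right, hyy'.pair]; simp
  have n2 : Q (y + (2 * (1 + a) * α) • y') = 2 * (1 + a) * α := by
    rw [Q_add, QuadraticMap.map_smul, hyy'.left, hyy'.right, polar_smul_right, hyy'.pair]; simp
  have z0 : Q w ≠ 0 := by rw [h.qw]; exact hα
  have zm : Q ((1 + a) • w + b • z) ≠ 0 := by rw [Qm]; exact hm0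
  have z1 : Q (y + α • y') ≠ 0 := by rw [n1]; exact hα
  have z2 : Q (y + (2 * (1 + a) * α) • y') ≠ 0 := by rw [n2]; exact hm0
  have hcomm : refl Q _ zm * refl Q _ z1 = refl Q _ z1 * refl Q _ zm := by
    refine refl_comm zm z1 ?_
    rw [polar_add_left, polar_add_right, polar_add_right, polar_smul_left, polar_smul_left, polar_smul_left, polar_smul_left,
      polar_smul_right, polar_smul_right, wy, wy', zy, zy']
    simp
  have hRE : refl Q _ z0 * refl Q _ zm * (refl Q _ z1 * refl Q _ z2) ∈ E Q := by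
    have e1 : refl Q _ z0 * refl Q _ zm * (refl Q _ z1 * refl Q _ z2) =
        (refl Q _ z0 * refl Q _ z1) * (refl Q _ zm * refl Q _ z2) := by
      rw [mul_assoc, ← mul_assoc (refl Q _ zm), hcomm]
      group
    rw [e1]
    exact E_mul (hG.refl_mul_refl_mem z1 z0 (by rw [n1, h.qw])) (hG.refl_mul_refl_mem z2 zm (by rw [n2, Qm]))
  have fy : ∀ v, polar Q y v = 0 → polar Q y' v = 0 → refl Q _ z1 (refl Q _ z2 v) = v := by
    intro v h1 h3
    have k2 : refl Q _ z2 v = v := by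
      rw [refl_apply, polar_add_left, polar_smul_left, h1, h3]; simp
    have k1 : refl Q _ z1 v = v := by
      rw [refl_apply, polar_add_left, polar_smul_left, h1, h3]; simp
    rw [k2, k1]
  have fw : ∀ v, polar Q w v = 0 → polar Q z v = 0 → refl Q _ z0 (refl Q _ zm v) = v := by
    intro v h1 h3
    have k2 : refl Q _ zm v = v := by
      rw [refl_apply, polar_add_left, polar_smul_left, polar_smul_left, h1, h3]; simp
    have k1 : refl Q _ z0 v = v := by
      rw [refl_apply, h1]; simp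
    rw [k2, k1]
  obtain ⟨R, hR⟩ : ∃ R, R = refl Q _ z0 * refl Q _ zm * (refl Q _ z1 * refl Q _ z2) := ⟨_, rfl⟩
  have Rv : ∀ v, R v = refl Q _ z0 (refl Q _ zm (refl Q _ z1 (refl Q _ z2 v))) := by
    intro v; rw [hR]; rfl
  have Rx : R x = x := by
    rw [Rv, fy x yx y'x, fw x wx zx]
  have Ry : R y = (2 * (1 + a)) • y := by
    have k2 : refl Q _ z2 y = (-(2 * (1 + a) * α)) • y' := by
      rw [refl_apply, n2, polar_add_left, polar_smul_left, yy, hyy'.pair']
      match_scalars <;> field_simp <;> simp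
    have k1 : refl Q _ z1 ((-(2 * (1 + a) * α)) • y') = (2 * (1 + a)) • y := by
      rw [refl_apply, n1, polar_smul_right, polar_add_left, polar_smul_left, hyy'.polar_right, hyy'.pair]
      match_scalars <;> field_simp <;> simp
    rw [Rv, k2, k1, fw _ (by rw [polar_smul_right, wy, smul_zero]) (by rw [polar_smul_right, zy, smul_zero])]
  have Rw : R w₀ = w := by
    rw [Rv, fy w₀ (by rw [ew, polar_add_right, polar_smul_right, polar_smul_right, h.yw, h.yz]; simp)
      (by rw [ew, polar_add_right, polar_smul_right, polar_smul_right, y'w, y'z]; simp)]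
    have k2 : refl Q _ zm w₀ = -w := by
      have hp : polar Q ((1 + a) • w + b • z) w₀ = 2 * (1 + a) * α := by
        rw [ew]
        simp only [polar_add_left, polar_add_right, polar_smul_left, polar_smul_right, ww, h.wz, zw, zz, smul_eq_mul]
        linear_combination (2 * α) * hab - 2 * b * b * hk
      rw [refl_apply, Qm, hp, inv_mul_cancel₀ hm0, ew]
      module
    rw [k2, refl_apply, h.qw, polar_neg_right, ww]
    match_scalars
    field_simp
    ring
  have Rz : R z₀ = z := by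
    rw [Rv, fy z₀ (by rw [ez, polar_add_right, polar_smul_right, polar_smul_right, h.yw, h.yz]; simp)
      (by rw [ez, polar_add_right, polar_smul_right, polar_smul_right, y'w, y'z]; simp)]
    have k2 : refl Q _ zm z₀ = z := by
      have hp : polar Q ((1 + a) • w + b • z) z₀ = -(2 * b * β) := by
        rw [ez]
        simp only [polar_add_left, polar_add_right, polar_smul_left, polar_smul_right, ww, h.wz, zw, zz, smul_eq_mul]
        linear_combination (-(2 * (1 + a) * b)) * hk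
      have hq : (2 * (1 + a) * α)⁻¹ * (-(2 * b * β)) = -(b * k) * (1 + a)⁻¹ := by
        rw [← hk]
        field_simp
      rw [refl_apply, Qm, hp, hq, ez]
      match_scalars
      · field_simp
        ring
      · field_simp
        linear_combination hab
    rw [k2, refl_apply, h.wz]
    simp
  -- the two expressions of the element
  have hx₀ : Q x₀ = 0 := by rw [← Px, mem_O.1 (E_le_O (E_mul (E_mul UE LE) UE))]; exact h.qx
  have hy₀ : Q y₀ = 0 := by rw [← Py, mem_O.1 (E_le_O (E_mul (E_mul UE LE) UE))]; exact h.qy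
  have hxw₀ : polar Q x₀ w₀ = 0 := by
    rw [ex, ew]
    simp only [polar_add_left, polar_add_right, polar_smul_left, polar_smul_right, h.xw, h.xz, h.yw, h.yz, smul_eq_mul]
    ring
  have hyz₀ : polar Q y₀ z₀ = 0 := by
    rw [ey, ez]
    simp only [polar_add_left, polar_add_right, polar_smul_left, polar_smul_right, h.xw, h.xz, h.yw, h.yz, smul_eq_mul]
    ring
  rw [rot_eq h hk hab ex ew ey ez hx₀ hxw₀ hy₀ hyz₀]
  obtain ⟨P, hP⟩ : ∃ P, P = U * L * U := ⟨_, rfl⟩
  rw [← hP] at Px Py Pw Pz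
  have hPE : P ∈ E Q := by rw [hP]; exact E_mul (E_mul UE LE) UE
  rw [← hR] at hRE
  have hinv : ∀ {s t : V}, P s = t → P⁻¹ t = s := by
    rintro s t rfl
    exact LinearEquiv.symm_apply_apply P s
  have hgE : R * P⁻¹ ∈ E Q := E_mul hRE ((E Q).inv_mem hPE)
  have hgO := E_le_O hgE
  refine ⟨R * P⁻¹, hgE, ?_⟩
  have gx : (R * P⁻¹) x₀ = x := by
    show R (P⁻¹ x₀) = _
    rw [hinv Px, Rx]
  have gy : (R * P⁻¹) y₀ = (2 * (1 + a)) • y := by
    show R (P⁻¹ y₀) = _
    rw [hinv Py, Ry]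
  have gw : (R * P⁻¹) w₀ = w := by
    show R (P⁻¹ w₀) = _
    rw [hinv (s := w₀) (by rw [ew, map_add, map_smul, map_smul, Pw, Pz]), Rw]
  have gz : (R * P⁻¹) z₀ = z := by
    show R (P⁻¹ z₀) = _
    rw [hinv (s := z₀) (by rw [ez, map_add, map_smul, map_smul, Pw, Pz]), Rz]
  have hconj : R * P⁻¹ * (siegel Q x₀ w₀ hx₀ hxw₀ * siegel Q y₀ z₀ hy₀ hyz₀) * (R * P⁻¹)⁻¹ =
      (R * P⁻¹ * siegel Q x₀ w₀ hx₀ hxw₀ * (R * P⁻¹)⁻¹) * (R * P⁻¹ * siegel Q y₀ z₀ hy₀ hyz₀ * (R * P⁻¹)⁻¹) := by group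
  rw [hconj, siegel_conj' hgO hx₀ hxw₀ h.qx h.xw gx gw, siegel_conj' hgO hy₀ hyz₀ hy' hyz' gy gz]

omit [Finite F] in
theorem exists_nsq (h2 : (2 : F) ≠ 0) [Finite F] (hq : 5 < Nat.card F) : ∃ ε : F, ¬ IsSquare ε ∧ ε ≠ -1 := by
  classical
  have := Fintype.ofFinite F
  obtain ⟨ε, hε⟩ := FiniteField.exists_nonsquare (F := F) (fun h => h2 (by
    have : CharP F 2 := ringChar.of_eq h
    exact CharTwo.two_eq_zero))
  by_cases h1 : ε = -1
  · subst h1
    obtain ⟨c, hc⟩ : ∃ c : F, c ∉ ({0, 1, -1} : Finset F) := by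
      by_contra hcon
      push Not at hcon
      have h3 : (Finset.univ : Finset F) ⊆ {0, 1, -1} := fun x _ => hcon x
      have h4 := Finset.card_le_card h3
      have h5 : ({0, 1, -1} : Finset F).card ≤ 3 := Finset.card_le_three
      rw [Finset.card_univ, ← Nat.card_eq_fintype_card] at h4
      omega
    simp only [Finset.mem_insert, Finset.mem_singleton, not_or] at hc
    refine ⟨-(c * c), ?_, ?_⟩
    · rintro ⟨d, hd⟩
      apply hε
      refine ⟨d * c⁻¹, ?_⟩
      have hc0 := hc.1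
      field_simp
      linear_combination hd
    · intro h3
      have h4 : (c - 1) * (c + 1) = 0 := by linear_combination -h3
      rcases mul_eq_zero.1 h4 with h5 | h5
      · exact hc.2.1 (sub_eq_zero.1 h5)
      · exact hc.2.2 (eq_neg_of_add_eq_zero_left h5)
  · exact ⟨ε, hε, h1⟩

theorem isSquare_mul_of_not {a b : F} (ha : ¬ IsSquare a) (hb : ¬ IsSquare b) : IsSquare (a * b) := by
  classical
  let _ := Fintype.ofFinite F
  have ha0 : a ≠ 0 := by rintro rfl; exact ha IsSquare.zero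
  have hb0 : b ≠ 0 := by rintro rfl; exact hb IsSquare.zero
  have h1 := (quadraticChar_neg_one_iff_not_isSquare (F := F)).2 ha
  have h3 := (quadraticChar_neg_one_iff_not_isSquare (F := F)).2 hb
  rw [← quadraticChar_one_iff_isSquare (mul_ne_zero ha0 hb0), map_mul, h1, h3]
  norm_num

theorem exists_tau (h2 : (2 : F) ≠ 0) (hq : 5 < Nat.card F) {k : F} (hk : k ≠ 0) : ∃ τ : F, ¬ IsSquare (1 + k * (τ * τ)) := by
  classical
  have := Fintype.ofFinite F
  obtain ⟨ε, hε, hε1⟩ := exists_nsq h2 hq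
  have hε0 : ε ≠ 0 := by rintro rfl; exact hε ⟨0, by ring⟩
  obtain ⟨s, t, hst⟩ : ∃ s t : F, ε * (s * s) = 1 + k * (t * t) := by
    have hodd : Fintype.card F % 2 = 1 := FiniteField.odd_card_of_char_ne_two (fun h => h2 (by
      have : CharP F 2 := ringChar.of_eq h
      exact CharTwo.two_eq_zero))
    obtain ⟨s, t, hst⟩ := FiniteField.exists_root_sum_quadratic (R := F)
      (f := Polynomial.C ε * Polynomial.X ^ 2 + Polynomial.C 0 * Polynomial.X + Polynomial.C (-1))
      (g := Polynomial.C (-k) * Polynomial.X ^ 2 + Polynomial.C 0 * Polynomial.X + Polynomial.C 0)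
      (Polynomial.degree_quadratic hε0) (Polynomial.degree_quadratic (neg_ne_zero.2 hk)) hodd
    refine ⟨s, t, ?_⟩
    simp only [Polynomial.eval_add, Polynomial.eval_mul, Polynomial.eval_C, Polynomial.eval_pow, Polynomial.eval_X] at hst
    linear_combination hst
  by_cases hs : s = 0
  · subst hs
    have hε2 : ε + 1 ≠ 0 := fun h => hε1 (eq_neg_of_add_eq_zero_left h)
    refine ⟨t * ((ε - 1) * (ε + 1)⁻¹), ?_⟩
    rintro ⟨d, hd⟩
    apply hε
    refine ⟨d * (ε + 1) * 2⁻¹, ?_⟩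
    have h3 : k * (t * t) = -1 := by linear_combination -hst
    have h4 : 1 + k * (t * ((ε - 1) * (ε + 1)⁻¹) * (t * ((ε - 1) * (ε + 1)⁻¹))) = 4 * ε * ((ε + 1)⁻¹ * (ε + 1)⁻¹) := by
      have h5 : (ε + 1) * (ε + 1)⁻¹ = 1 := mul_inv_cancel₀ hε2
      linear_combination ((ε - 1) * (ε + 1)⁻¹) ^ 2 * h3 + (-1 - (ε + 1) * (ε + 1)⁻¹) * h5
    rw [h4] at hd
    field_simp at hd ⊢
    linear_combination hd
  · refine ⟨t, ?_⟩
    rw [← hst]
    rintro ⟨d, hd⟩
    apply hε
    refine ⟨d * s⁻¹, ?_⟩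
    field_simp
    linear_combination hd

/-- **the elements of two tuples with the same norms are conjugate in `E Q`** -/
theorem tup_conj (hG : Good Q) (h2 : (2 : F) ≠ 0) (h7 : 7 ≤ Module.finrank F V) (hq : 5 < Nat.card F)
    {x w y z x₁ w₁ y₁ z₁ : V} {α β : F} (hα : α ≠ 0) (hβ : β ≠ 0) (h : Tup Q x w y z α β) (h₁ : Tup Q x₁ w₁ y₁ z₁ α β) :
    ∃ g ∈ E Q, g * (siegel Q x w h.qx h.xw * siegel Q y z h.qy h.yz) * g⁻¹ =
      siegel Q x₁ w₁ h₁.qx h₁.xw * siegel Q y₁ z₁ h₁.qy h₁.yz := by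
  obtain ⟨g, hg, μ, hμ, ex, ew, ey, ez⟩ := tup_trans hG h2 h7 hα hβ h h₁
  have hgO := E_le_O hg
  have hy' : ∀ c : F, Q (c • y₁) = 0 := fun c => by rw [QuadraticMap.map_smul, h₁.qy, smul_zero]
  have hyz' : ∀ c : F, polar Q (c • y₁) z₁ = 0 := fun c => by rw [polar_smul_left, h₁.yz, smul_zero]
  have step1 : g * (siegel Q x w h.qx h.xw * siegel Q y z h.qy h.yz) * g⁻¹ =
      siegel Q x₁ w₁ h₁.qx h₁.xw * siegel Q (μ • y₁) z₁ (hy' μ) (hyz' μ) := by
    have hconj : g * (siegel Q x w h.qx h.xw * siegel Q y z h.qy h.yz) * g⁻¹ =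
        (g * siegel Q x w h.qx h.xw * g⁻¹) * (g * siegel Q y z h.qy h.yz * g⁻¹) := by group
    rw [hconj, siegel_conj' hgO h.qx h.xw h₁.qx h₁.xw ex ew, siegel_conj' hgO h.qy h.yz (hy' μ) (hyz' μ) ey ez]
  -- squares
  have sq : ∀ {c : F}, c ≠ 0 → ∀ {ν : F}, ν ≠ 0 → ∃ e ∈ E Q,
      e * (siegel Q x₁ w₁ h₁.qx h₁.xw * siegel Q (c • y₁) z₁ (hy' c) (hyz' c)) * e⁻¹ =
        siegel Q x₁ w₁ h₁.qx h₁.xw * siegel Q ((c * (ν * ν)) • y₁) z₁ (hy' _) (hyz' _) := by
    intro c hc ν hν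
    obtain ⟨e, he, f1, f2, f3, f4⟩ := sq_step hG h2 hα hβ h₁ hν
    have heO := E_le_O he
    refine ⟨e, he, ?_⟩
    have hconj : e * (siegel Q x₁ w₁ h₁.qx h₁.xw * siegel Q (c • y₁) z₁ (hy' c) (hyz' c)) * e⁻¹ =
        (e * siegel Q x₁ w₁ h₁.qx h₁.xw * e⁻¹) * (e * siegel Q (c • y₁) z₁ (hy' c) (hyz' c) * e⁻¹) := by group
    rw [hconj, siegel_conj' heO h₁.qx h₁.xw h₁.qx h₁.xw f1 f2,
      siegel_conj' heO (hy' c) (hyz' c) (hy' (c * (ν * ν))) (hyz' _) (by rw [map_smul, f3, smul_smul]) f4]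
  have h1c : siegel Q x₁ w₁ h₁.qx h₁.xw * siegel Q ((1 : F) • y₁) z₁ (hy' 1) (hyz' 1) =
      siegel Q x₁ w₁ h₁.qx h₁.xw * siegel Q y₁ z₁ h₁.qy h₁.yz := by
    congr 1
    exact siegel_eq _ _ _ _ (one_smul F y₁) rfl
  -- every scalar is conjugate to `1`
  suffices key : ∃ e ∈ E Q, e * (siegel Q x₁ w₁ h₁.qx h₁.xw * siegel Q y₁ z₁ h₁.qy h₁.yz) * e⁻¹ =
      siegel Q x₁ w₁ h₁.qx h₁.xw * siegel Q (μ • y₁) z₁ (hy' μ) (hyz' μ) by
    obtain ⟨e, he, hee⟩ := key
    refine ⟨e⁻¹ * g, E_mul ((E Q).inv_mem he) hg, ?_⟩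
    have h3 : e⁻¹ * g * (siegel Q x w h.qx h.xw * siegel Q y z h.qy h.yz) * (e⁻¹ * g)⁻¹ =
        e⁻¹ * (g * (siegel Q x w h.qx h.xw * siegel Q y z h.qy h.yz) * g⁻¹) * e := by group
    rw [h3, step1, ← hee]
    group
  by_cases hsq : IsSquare μ
  · obtain ⟨ν, hν⟩ := hsq
    have hν0 : ν ≠ 0 := by rintro rfl; exact hμ (by rw [hν, mul_zero])
    obtain ⟨e, he, hee⟩ := sq one_ne_zero hν0
    rw [h1c] at hee
    refine ⟨e, he, ?_⟩
    rw [hee]
    congr 1
    exact siegel_eq _ _ _ _ (by rw [hν, one_mul]) rfl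
  · -- rotation
    obtain ⟨k, hk⟩ : ∃ k, k = β * α⁻¹ := ⟨_, rfl⟩
    have hk0 : k ≠ 0 := by rw [hk]; exact mul_ne_zero hβ (inv_ne_zero hα)
    have hkα : k * α = β := by rw [hk, mul_assoc, inv_mul_cancel₀ hα, mul_one]
    obtain ⟨τ, hτ⟩ := exists_tau h2 hq hk0
    have hd0 : 1 + k * (τ * τ) ≠ 0 := by intro h0; exact hτ ⟨0, by rw [h0]; ring⟩
    have hτ0 : τ ≠ 0 := by rintro rfl; exact hτ ⟨1, by ring⟩
    obtain ⟨D, hD⟩ : ∃ D, (1 + k * (τ * τ)) * D = 1 := ⟨_, mul_inv_cancel₀ hd0⟩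
    have hD0 : D ≠ 0 := right_ne_zero_of_mul_eq_one hD
    obtain ⟨a, ha⟩ : ∃ a, a = (1 - k * (τ * τ)) * D := ⟨_, rfl⟩
    obtain ⟨b, hb⟩ : ∃ b, b = 2 * τ * D := ⟨_, rfl⟩
    have hab : a * a + k * (b * b) = 1 := by
      rw [ha, hb]
      linear_combination ((1 + k * (τ * τ)) * D + 1) * hD
    have hb0 : b ≠ 0 := by
      rw [hb]
      exact mul_ne_zero (mul_ne_zero h2 hτ0) hD0
    have h2a : 2 * (1 + a) = 4 * D := by
      rw [ha]
      linear_combination (-2) * hD
    obtain ⟨e, he, hee⟩ := rot_step hG h2 hα hβ h₁ hkα hab hb0 (hy' _) (hyz' _)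
    -- `μ = 2 (1 + a) ν ^ 2`
    obtain ⟨ν, hν⟩ : IsSquare (μ * (1 + k * (τ * τ))) := isSquare_mul_of_not hsq hτ
    have h4 : (4 : F) = 2 * 2 := by norm_num
    have h20 : 2 * (1 + a) ≠ 0 := by rw [h2a, h4]; exact mul_ne_zero (mul_ne_zero h2 h2) hD0
    have hν0 : ν ≠ 0 := by
      rintro rfl
      apply mul_ne_zero hμ hd0
      rw [hν]; ring
    obtain ⟨f, hf, hff⟩ := sq h20 (ν := ν * 2⁻¹) (mul_ne_zero hν0 (inv_ne_zero h2))
    refine ⟨f * e, E_mul hf he, ?_⟩
    have h3 : f * e * (siegel Q x₁ w₁ h₁.qx h₁.xw * siegel Q y₁ z₁ h₁.qy h₁.yz) * (f * e)⁻¹ =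
        f * (e * (siegel Q x₁ w₁ h₁.qx h₁.xw * siegel Q y₁ z₁ h₁.qy h₁.yz) * e⁻¹) * f⁻¹ := by group
    rw [h3, hee, hff]
    congr 1
    refine siegel_eq _ _ _ _ ?_ rfl
    congr 1
    rw [h2a]
    have h5 : (2 : F) * 2⁻¹ = 1 := mul_inv_cancel₀ h2
    linear_combination (-D) * hν + μ * hD + D * ν * ν * (2 * 2⁻¹ + 1) * h5

end Cfsg.Agent.H830.Hex
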