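import Cfsg.Agent.H830.Rg.HexE

/-!
# S3691, `Ω₇(q)`: normal forms of the unipotent elements of type `(3, 3, 1)` (helper830)

* `conj331` : `siegel u w * siegel u' w'` with `Δ = polar w w' ^ 2 - 4 Q w Q w' ≠ 0` is determined up to
  conjugation in `E Q` by `Δ` modulo squares
-/

set_option autoImplicit false
set_option linter.unusedSectionVars false

namespace Cfsg.Agent.H830.Hex

open QuadraticMap Cfsg.Agent.LieClassical.OrthCore Cfsg.Agent.LieClassical.OrthTrans
  Cfsg.Agent.LieClassical.OrthSimple Cfsg.Agent.H883.Sub Cfsg.Agent.H883.Root Cfsg.Agent.H916.QuadLemmas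

variable {F V : Type*} [Field F] [AddCommGroup V] [Module F V] {Q : QuadraticForm F V}

theorem bin_one [Finite F] (h2 : (2 : F) ≠ 0) {a P d : F} (ha : a ≠ 0) (hΔ : P * P - 4 * a * d ≠ 0) :
    ∃ s t : F, a * (s * s) + P * (s * t) + d * (t * t) = 1 := by
  classical
  have := Fintype.ofFinite F
  have hodd : Fintype.card F % 2 = 1 := FiniteField.odd_card_of_char_ne_two (fun h => h2 (by
    have : CharP F 2 := ringChar.of_eq h
    exact CharTwo.two_eq_zero))
  obtain ⟨c, hc⟩ : ∃ c, 2 * a * c = 1 := ⟨(2 * a)⁻¹, mul_inv_cancel₀ (mul_ne_zero h2 ha)⟩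
  have hc0 : c ≠ 0 := right_ne_zero_of_mul_eq_one hc
  have hg : -((P * P - 4 * a * d) * (a * c * c)) ≠ 0 :=
    neg_ne_zero.2 (mul_ne_zero hΔ (mul_ne_zero (mul_ne_zero ha hc0) hc0))
  obtain ⟨s, t, hst⟩ := FiniteField.exists_root_sum_quadratic (R := F)
    (f := Polynomial.C a * Polynomial.X ^ 2 + Polynomial.C 0 * Polynomial.X + Polynomial.C (-1))
    (g := Polynomial.C (-((P * P - 4 * a * d) * (a * c * c))) * Polynomial.X ^ 2 + Polynomial.C 0 * Polynomial.X +
      Polynomial.C 0)
    (Polynomial.degree_quadratic ha) (Polynomial.degree_quadratic hg) hodd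
  simp only [Polynomial.eval_add, Polynomial.eval_mul, Polynomial.eval_C, Polynomial.eval_pow, Polynomial.eval_X] at hst
  refine ⟨s - P * c * t, t, ?_⟩
  linear_combination hst + (- P * s * t + P * P * c * t ^ 2 - d * t ^ 2 * (2 * a * c + 1)) * hc

theorem bin_rep [Finite F] (h2 : (2 : F) ≠ 0) {a P d : F} (hΔ : P * P - 4 * a * d ≠ 0) :
    ∃ s t : F, a * (s * s) + P * (s * t) + d * (t * t) = 1 := by
  by_cases ha : a = 0
  · by_cases hd : d = 0
    · subst ha hd
      have hP : P ≠ 0 := by rintro rfl; exact hΔ (by ring)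
      exact ⟨1, P⁻¹, by field_simp; ring⟩
    · obtain ⟨s, t, hst⟩ := bin_one h2 (a := d) (P := P) (d := a) hd (by intro h; exact hΔ (by linear_combination h))
      exact ⟨t, s, by linear_combination hst⟩
  · exact bin_one h2 ha hΔ

/-- the relations of the element `siegel u w * siegel u' w'` -/
structure Gen (Q : QuadraticForm F V) (u w u' w' : V) : Prop where
  qu : Q u = 0
  qu' : Q u' = 0
  uu' : polar Q u u' = 0
  uw : polar Q u w = 0
  uw' : polar Q u w' = 0
  u'w : polar Q u' w = 0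
  u'w' : polar Q u' w' = 0
  ind : ∀ l : F, u' ≠ l • u
  u0 : u ≠ 0

/-- the discriminant -/
def Dsc (Q : QuadraticForm F V) (w w' : V) : F := polar Q w w' * polar Q w w' - 4 * Q w * Q w'

theorem normal_one (h2 : (2 : F) ≠ 0) {u w u' w' : V} (h : Gen Q u w u' w') {s t : F}
    (hst : Q w * (s * s) + polar Q w w' * (s * t) + Q w' * (t * t) = 1) :
    ∃ (x n y m : V) (H : Tup Q x n y m 1 (-Dsc Q w w')),
      siegel Q u w h.qu h.uw * siegel Q u' w' h.qu' h.u'w' = siegel Q x n H.qx H.xw * siegel Q y m H.qy H.yz := by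
  obtain ⟨a, ha⟩ : ∃ a, a = Q w := ⟨_, rfl⟩
  obtain ⟨d, hd⟩ : ∃ d, d = Q w' := ⟨_, rfl⟩
  obtain ⟨P, hP⟩ : ∃ P, P = polar Q w w' := ⟨_, rfl⟩
  obtain ⟨c, hc⟩ : ∃ c : F, c * 2 = 1 := ⟨2⁻¹, inv_mul_cancel₀ h2⟩
  obtain ⟨A, hA⟩ : ∃ A, A = 2 * s * a + t * P := ⟨_, rfl⟩
  obtain ⟨B, hB⟩ : ∃ B, B = s * P + 2 * t * d := ⟨_, rfl⟩
  rw [← ha, ← hd, ← hP] at hst
  have hAB : A * s + B * t = 2 := by rw [hA, hB]; linear_combination 2 * hst
  have hwu : polar Q w u = 0 := by rw [polar_comm]; exact h.uw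
  have hwu' : polar Q w u' = 0 := by rw [polar_comm]; exact h.u'w
  have hw'u : polar Q w' u = 0 := by rw [polar_comm]; exact h.uw'
  have hw'u' : polar Q w' u' = 0 := by rw [polar_comm]; exact h.u'w'
  have hu'u : polar Q u' u = 0 := by rw [polar_comm]; exact h.uu'
  have huu : polar Q u u = 0 := polar_self_of_sing h.qu
  have hu'u' : polar Q u' u' = 0 := polar_self_of_sing h.qu'
  have hww : polar Q w w = 2 * a := by rw [polar_self', ha]
  have hw'w' : polar Q w' w' = 2 * d := by rw [polar_self', hd]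
  have hw'w : polar Q w' w = P := by rw [polar_comm, hP]
  obtain ⟨x, ex⟩ : ∃ x, x = (c * A) • u + (c * B) • u' := ⟨_, rfl⟩
  obtain ⟨y, ey⟩ : ∃ y, y = (-(c * t)) • u + (c * s) • u' := ⟨_, rfl⟩
  obtain ⟨n, en⟩ : ∃ n, n = s • w + t • w' + P • y := ⟨_, rfl⟩
  obtain ⟨m, em⟩ : ∃ m, m = (-B) • w + A • w' := ⟨_, rfl⟩
  have hΔ' : Dsc Q w w' = P * P - 4 * a * d := by rw [Dsc, ha, hd, hP]
  have H : Tup Q x n y m 1 (-Dsc Q w w') := by
    refine ⟨?_, ?_, ?_, ?_, ?_, ?_, ?_, ?_, ?_, ?_, ?_, ?_⟩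
    · rw [ex, Q_add, QuadraticMap.map_smul, QuadraticMap.map_smul, polar_smul_left, polar_smul_right, h.qu, h.qu', h.uu']; simp
    · rw [ey, Q_add, QuadraticMap.map_smul, QuadraticMap.map_smul, polar_smul_left, polar_smul_right, h.qu, h.qu', h.uu']; simp
    · rw [ex, ey]
      simp only [polar_add_left, polar_add_right, polar_smul_left, polar_smul_right, huu, h.uu', hu'u, hu'u', smul_eq_mul]
      ring
    · rw [ex, en, ey]
      simp only [polar_add_left, polar_add_right, polar_smul_left, polar_smul_right, huu, h.uu', hu'u, hu'u', h.uw, h.uw',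
        h.u'w, h.u'w', smul_eq_mul]
      ring
    · rw [ex, em]
      simp only [polar_add_left, polar_add_right, polar_smul_left, polar_smul_right, h.uw, h.uw', h.u'w, h.u'w', smul_eq_mul]
      ring
    · rw [en, ey]
      simp only [polar_add_left, polar_add_right, polar_smul_left, polar_smul_right, huu, h.uu', hu'u, hu'u', h.uw, h.uw',
        h.u'w, h.u'w', smul_eq_mul]
      ring
    · rw [ey, em]
      simp only [polar_add_left, polar_add_right, polar_smul_left, polar_smul_right, h.uw, h.uw', h.u'w, h.u'w', smul_eq_mul]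
      ring
    · rw [en, ey, em]
      simp only [polar_add_left, polar_add_right, polar_smul_left, polar_smul_right, h.uw, h.uw', h.u'w, h.u'w', hww, ← hP,
        hw'w, hw'w', smul_eq_mul]
      rw [hA, hB]
      ring
    · rw [en, ey]
      simp only [Q_add, QuadraticMap.map_smul, polar_add_left, polar_add_right, polar_smul_left, polar_smul_right, h.qu,
        h.qu', h.uu', hwu, hwu', hw'u, hw'u', ← ha, ← hd, ← hP, smul_eq_mul]
      linear_combination hst
    · rw [em, hΔ']
      simp only [Q_add, QuadraticMap.map_smul, polar_smul_left, polar_smul_right, ← ha, ← hd, ← hP, smul_eq_mul]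
      rw [hA, hB]
      linear_combination (4 * a * d - P * P) * hst
    · intro l hl
      rw [ey, ex] at hl
      have h1 : (c * s - l * (c * B)) • u' = (l * (c * A) + c * t) • u := by
        have : (c * s - l * (c * B)) • u' - (l * (c * A) + c * t) • u =
          ((-(c * t)) • u + (c * s) • u') - l • ((c * A) • u + (c * B) • u') := by module
        rw [hl, sub_self] at this
        exact sub_eq_zero.1 this
      have h0 : c * s - l * (c * B) = 0 := by
        by_contra h0
        apply h.ind ((c * s - l * (c * B))⁻¹ * (l * (c * A) + c * t))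
        rw [mul_smul, ← h1, smul_smul, inv_mul_cancel₀ h0, one_smul]
      rw [h0, zero_smul] at h1
      have h3 : l * (c * A) + c * t = 0 := by
        rcases smul_eq_zero.1 h1.symm with h4 | h4
        · exact h4
        · exact absurd h4 h.u0
      -- `A s + B t = 0`
      have h4 : c * (A * s + B * t) = 0 := by linear_combination A * h0 + B * h3
      rw [hAB, hc] at h4
      exact one_ne_zero h4
    · intro hx0
      rw [ex] at hx0
      have h1 : (c * B) • u' = (-(c * A)) • u := by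
        have : (c * B) • u' - (-(c * A)) • u = (c * A) • u + (c * B) • u' := by module
        rw [hx0] at this
        exact sub_eq_zero.1 this
      have h0 : c * B = 0 := by
        by_contra h0
        apply h.ind ((c * B)⁻¹ * (-(c * A)))
        rw [mul_smul, ← h1, smul_smul, inv_mul_cancel₀ h0, one_smul]
      rw [h0, zero_smul] at h1
      have h3 : -(c * A) = 0 := by
        rcases smul_eq_zero.1 h1.symm with h4 | h4
        · exact h4
        · exact absurd h4 h.u0
      have h4 : c * (A * s + B * t) = 0 := by linear_combination t * h0 - s * h3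
      rw [hAB, hc] at h4
      exact one_ne_zero h4
  refine ⟨x, n, y, m, H, ?_⟩
  ext v
  show siegel Q u w h.qu h.uw (siegel Q u' w' h.qu' h.u'w' v) = siegel Q x n H.qx H.xw (siegel Q y m H.qy H.yz v)
  have Hny : polar Q n y = 0 := by rw [polar_comm]; exact H.yw
  simp only [siegel_apply, polar_add_right, polar_sub_right, polar_smul_right, H.qw, H.qz, ← ha, ← hd, ← hP, smul_eq_mul,
    H.xy, H.xz, H.wz, Hny, hwu', h.uu', h.uw']
  have v1 : polar Q x v = (c * A) * polar Q u v + (c * B) * polar Q u' v := by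
    rw [ex, polar_add_left, polar_smul_left, polar_smul_left]; rfl
  have v3 : polar Q y v = (-(c * t)) * polar Q u v + (c * s) * polar Q u' v := by
    rw [ey, polar_add_left, polar_smul_left, polar_smul_left]; rfl
  have v2 : polar Q n v = s * polar Q w v + t * polar Q w' v + P * ((-(c * t)) * polar Q u v + (c * s) * polar Q u' v) := by
    rw [en, polar_add_left, polar_add_left, polar_smul_left, polar_smul_left, polar_smul_left, v3]; rfl
  have v4 : polar Q m v = (-B) * polar Q w v + A * polar Q w' v := by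
    rw [em, polar_add_left, polar_smul_left, polar_smul_left]; rfl
  rw [v1, v2, v3, v4, hΔ', ex, en, em, ey, hA, hB]
  match_scalars
  · ring
  · linear_combination (-polar Q u' v) * (2 * c * hst + hc)
  · linear_combination (2 * c * polar Q w' v + 4 * c * c * d * polar Q u' v) * hst +
      (polar Q w' v + d * (2 * c + 1) * polar Q u' v) * hc
  · linear_combination (-polar Q u v) * (2 * c * hst + hc)
  · linear_combination (2 * c * polar Q w v + 4 * c * c * a * polar Q u v + 4 * c * c * P * polar Q u' v) * hst +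
      (polar Q w v + a * (2 * c + 1) * polar Q u v + P * (2 * c + 1) * polar Q u' v) * hc

/-- scaling of the second pair -/
theorem Tup.scale {x n y m : V} {α β ρ : F} (H : Tup Q x n y m α β) (hρ : ρ ≠ 0) :
    ∃ (y' m' : V) (H' : Tup Q x n y' m' α (β * (ρ * ρ))),
      siegel Q x n H.qx H.xw * siegel Q y m H.qy H.yz = siegel Q x n H'.qx H'.xw * siegel Q y' m' H'.qy H'.yz := by
  have hρ' : ρ⁻¹ ≠ 0 := inv_ne_zero hρ
  refine ⟨ρ⁻¹ • y, ρ • m, ⟨H.qx, ?_, ?_, H.xw, ?_, ?_, ?_, ?_, H.qw, ?_, ?_, H.x0⟩, ?_⟩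
  · rw [QuadraticMap.map_smul, H.qy, smul_zero]
  · rw [polar_smul_right, H.xy, smul_zero]
  · rw [polar_smul_right, H.xz, smul_zero]
  · rw [polar_smul_left, H.yw, smul_zero]
  · rw [polar_smul_left, polar_smul_right, H.yz, smul_zero, smul_zero]
  · rw [polar_smul_right, H.wz, smul_zero]
  · rw [QuadraticMap.map_smul, H.qz, smul_eq_mul, mul_comm]
  · intro l hl
    apply H.ind (ρ * l)
    rw [mul_smul, ← hl, smul_smul, mul_inv_cancel₀ hρ, one_smul]
  · congr 1
    ext v
    rw [siegel_apply, siegel_apply, QuadraticMap.map_smul, polar_smul_left, polar_smul_left, H.qz]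
    have hr : ρ * ρ⁻¹ = 1 := mul_inv_cancel₀ hρ
    simp only [smul_eq_mul]
    match_scalars
    · ring
    · linear_combination (-polar Q y v) * hr
    · linear_combination (polar Q m v + β * polar Q y v * (ρ * ρ⁻¹ + 1)) * hr

variable [Finite F] [FiniteDimensional F V]

/-- **conjugacy of the elements of type `(3, 3, 1)`** -/
theorem conj331 (hG : Good Q) (h2 : (2 : F) ≠ 0) (h7 : 7 ≤ Module.finrank F V) (hq : 5 < Nat.card F)
    {u w u' w' u₁ w₁ u₁' w₁' : V} (h : Gen Q u w u' w') (h₁ : Gen Q u₁ w₁ u₁' w₁') (hΔ : Dsc Q w w' ≠ 0) {ρ : F}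
    (hρ : ρ ≠ 0) (hΔ₁ : Dsc Q w₁ w₁' = Dsc Q w w' * (ρ * ρ)) :
    ∃ g ∈ E Q, g * (siegel Q u w h.qu h.uw * siegel Q u' w' h.qu' h.u'w') * g⁻¹ =
      siegel Q u₁ w₁ h₁.qu h₁.uw * siegel Q u₁' w₁' h₁.qu' h₁.u'w' := by
  have hΔ1 : Dsc Q w₁ w₁' ≠ 0 := by rw [hΔ₁]; exact mul_ne_zero hΔ (mul_ne_zero hρ hρ)
  obtain ⟨s, t, hst⟩ := bin_rep h2 (a := Q w) (P := polar Q w w') (d := Q w') hΔ
  obtain ⟨s₁, t₁, hst₁⟩ := bin_rep h2 (a := Q w₁) (P := polar Q w₁ w₁') (d := Q w₁') hΔ1
  obtain ⟨x, n, y, m, H, e⟩ := normal_one h2 h hst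
  obtain ⟨x₁, n₁, y₁, m₁, H₁, e₁⟩ := normal_one h2 h₁ hst₁
  obtain ⟨y', m', H', e'⟩ := H.scale hρ
  have hβ : -Dsc Q w w' * (ρ * ρ) = -Dsc Q w₁ w₁' := by rw [hΔ₁]; ring
  rw [e, e', e₁]
  have H'' : Tup Q x n y' m' 1 (-Dsc Q w₁ w₁') := by rw [← hβ]; exact H'
  exact tup_conj hG h2 h7 hq one_ne_zero (neg_ne_zero.2 hΔ1) H'' H₁

end Cfsg.Agent.H830.Hex
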