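import Cfsg.Agent.H883.Sub
import Cfsg.Agent.H916.QuadLemmas
import Cfsg.Agent.ClassicalGeometry.OrthAut2

/-!
# The stabiliser of a singular vector in an orthogonal group, `p`-subgroups (helper830)

* `exists_fixed_mod` : a `p`-group which stabilises `T₁` and `T₂ ⊄ T₁` fixes a vector of `T₂ \ T₁` modulo `T₁`
* `redHom hv` : the action of the stabiliser of `v` on `v^⊥ / v`, realised on `cp Q v v'`
* `card_red` : `|P| = #{w ∈ cp Q v v' | Has Q P v w} * |P.map red|`
* `card_pgroup_le` : a `p`-subgroup of `O Q`, `dim V = 2 m + 1`, `p` odd, has order at most `q ^ (m * m)`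
-/

set_option autoImplicit false
set_option linter.unusedSectionVars false

namespace Cfsg.Agent.H830.Hex

open QuadraticMap Cfsg.Agent.LieClassical.OrthCore Cfsg.Agent.LieClassical.OrthTrans
  Cfsg.Agent.H883.Sub Cfsg.Agent.H883.Root Cfsg.Agent.H916.QuadLemmas

section

variable {F V : Type*} [Field F] [AddCommGroup V] [Module F V] [Finite F] [FiniteDimensional F V]

/-- the action on a quotient -/
theorem exists_fixed_mod {p : ℕ} [hp : Fact p.Prime] [CharP F p] {S : Subgroup (V ≃ₗ[F] V)} (hS : IsPGroup p S)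
    {T₁ T₂ : Submodule F V} (h1 : ∀ g ∈ S, ∀ x ∈ T₁, g x ∈ T₁) (h2 : ∀ g ∈ S, ∀ x ∈ T₂, g x ∈ T₂) (h : ¬ T₂ ≤ T₁) :
    ∃ x ∈ T₂, x ∉ T₁ ∧ ∀ g ∈ S, g x - x ∈ T₁ := by
  have hle : ∀ g : S, T₁ ≤ T₁.comap ((g : V ≃ₗ[F] V) : V →ₗ[F] V) := fun g x hx => h1 g g.2 x hx
  have hmem : ∀ (g : S) (x : V ⧸ T₁), x ∈ T₂.map T₁.mkQ → T₁.mapQ T₁ ((g : V ≃ₗ[F] V) : V →ₗ[F] V) (hle g) x ∈ T₂.map T₁.mkQ := by
    rintro g _ ⟨x, hx, rfl⟩
    exact ⟨g.1 x, h2 g g.2 x hx, by simp [Submodule.mapQ_apply]⟩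
  let act : MulAction S (T₂.map T₁.mkQ) :=
    { smul := fun g x => ⟨T₁.mapQ T₁ ((g : V ≃ₗ[F] V) : V →ₗ[F] V) (hle g) x, hmem g x x.2⟩
      one_smul := by
        rintro ⟨_, x, hx, rfl⟩
        apply Subtype.ext
        show T₁.mapQ T₁ _ _ (T₁.mkQ x) = T₁.mkQ x
        simp
      mul_smul := by
        rintro g h ⟨_, x, hx, rfl⟩
        apply Subtype.ext
        show T₁.mapQ T₁ _ _ (T₁.mkQ x) = T₁.mapQ T₁ _ _ (T₁.mapQ T₁ _ _ (T₁.mkQ x))
        simp }
  have hfin : Finite (V ⧸ T₁) := Module.finite_of_finite F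
  have hfin' : Finite (T₂.map T₁.mkQ) := Subtype.finite
  have hcard : p ∣ Nat.card (T₂.map T₁.mkQ) := by
    have e1 : Nat.card (T₂.map T₁.mkQ) = Nat.card F ^ Module.finrank F (T₂.map T₁.mkQ) := Module.natCard_eq_pow_finrank
    have hpos : Module.finrank F (T₂.map T₁.mkQ) ≠ 0 := by
      intro h0
      apply h
      rw [Submodule.finrank_eq_zero] at h0
      intro x hx
      have h3 : T₁.mkQ x ∈ T₂.map T₁.mkQ := ⟨x, hx, rfl⟩
      rw [h0, Submodule.mem_bot] at h3
      simpa using h3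
    have hpF : p ∣ Nat.card F := by
      have := Fintype.ofFinite F
      obtain ⟨n, hn, hc⟩ := FiniteField.card F p
      rw [Nat.card_eq_fintype_card, hc]
      exact dvd_pow_self p n.pos.ne'
    rw [e1]
    exact dvd_pow hpF hpos
  have h0 : (0 : T₂.map T₁.mkQ) ∈ MulAction.fixedPoints S (T₂.map T₁.mkQ) := by
    intro g
    apply Subtype.ext
    show T₁.mapQ T₁ _ _ (0 : V ⧸ T₁) = 0
    rw [map_zero]
  obtain ⟨⟨_, x, hx, rfl⟩, hb, hne⟩ := hS.exists_fixed_point_of_prime_dvd_card_of_fixed_point (T₂.map T₁.mkQ) hcard h0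
  refine ⟨x, hx, ?_, fun g hg => ?_⟩
  · intro h3
    apply hne
    apply Subtype.ext
    show (0 : V ⧸ T₁) = T₁.mkQ x
    exact ((Submodule.Quotient.mk_eq_zero T₁).2 h3).symm
  · have h3 := congrArg Subtype.val (hb ⟨g, hg⟩)
    have h4 : T₁.mapQ T₁ (g : V →ₗ[F] V) (hle ⟨g, hg⟩) (T₁.mkQ x) = T₁.mkQ x := h3
    rw [Submodule.mkQ_apply, Submodule.mapQ_apply, Submodule.Quotient.eq] at h4
    exact h4

end

variable {F V : Type*} [Field F] [AddCommGroup V] [Module F V] {Q : QuadraticForm F V}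

theorem mem_perp_pair {v v' x : V} (h : x ∈ cp Q v v') : polar Q v x = 0 ∧ polar Q v' x = 0 := mem_cp.1 h

/-- the projection to `cp Q v v'` as a linear map -/
def projL {v v' : V} (hv : Hyp Q v v') : V →ₗ[F] cp Q v v' where
  toFun x := ⟨proj Q v v' x, proj_mem_cp hv x⟩
  map_add' x y := by
    apply Subtype.ext
    show proj Q v v' (x + y) = proj Q v v' x + proj Q v v' y
    simp only [LieClassical.OrthTrans.proj, polar_add_right]
    module
  map_smul' c x := by
    apply Subtype.ext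
    show proj Q v v' (c • x) = c • proj Q v v' x
    simp only [LieClassical.OrthTrans.proj, polar_smul_right, smul_eq_mul]
    module

theorem projL_apply {v v' : V} (hv : Hyp Q v v') (x : V) : (projL hv x : V) = proj Q v v' x := rfl

/-- the stabiliser of `v` -/
def StV (Q : QuadraticForm F V) (v : V) : Subgroup (V ≃ₗ[F] V) where
  carrier := {g | g ∈ O Q ∧ g v = v}
  one_mem' := ⟨(O Q).one_mem, rfl⟩
  mul_mem' := by
    rintro a b ⟨ha, ha'⟩ ⟨hb, hb'⟩
    exact ⟨(O Q).mul_mem ha hb, by show a (b v) = v; rw [hb', ha']⟩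
  inv_mem' := by
    rintro a ⟨ha, ha'⟩
    refine ⟨(O Q).inv_mem ha, ?_⟩
    show a.symm v = v
    rw [LinearEquiv.symm_apply_eq, ha']

theorem proj_of_mem {v v' x : V} (h : x ∈ cp Q v v') : proj Q v v' x = x := by
  obtain ⟨h1, h2⟩ := mem_cp.1 h
  simp [LieClassical.OrthTrans.proj, h1, h2]

theorem proj_add_smul {v v' : V} (hv : Hyp Q v v') (x : V) (c : F) : proj Q v v' (x + c • v) = proj Q v v' x := by
  simp only [LieClassical.OrthTrans.proj, polar_add_right, polar_smul_right, hv.pair', hv.polar_left, smul_eq_mul]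
  module

theorem map_cp {v v' : V} {g : V ≃ₗ[F] V} (hg : g ∈ StV Q v) {c : V} (hc : c ∈ cp Q v v') :
    g c = proj Q v v' (g c) + polar Q v' (g c) • v := by
  have h1 : polar Q v (g c) = 0 := by
    rw [← hg.2, polar_map hg.1]; exact (mem_cp.1 hc).1
  simp only [LieClassical.OrthTrans.proj, h1]
  module

/-- the action on `v^⊥ / v` -/
def redEnd {v v' : V} (hv : Hyp Q v v') : StV Q v →* Module.End F (cp Q v v') where
  toFun g := (projL hv).comp ((g.1 : V →ₗ[F] V).comp (cp Q v v').subtype)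
  map_one' := by
    ext c
    show proj Q v v' (c : V) = c
    exact proj_of_mem c.2
  map_mul' g h := by
    ext c
    show proj Q v v' (g.1 (h.1 (c : V))) = proj Q v v' (g.1 (proj Q v v' (h.1 (c : V))))
    rw [map_cp h.2 c.2, map_add, map_smul, g.2.2, proj_add_smul hv, proj_add_smul hv, proj_of_mem (proj_mem_cp hv _)]

/-- the action on `v^⊥ / v` -/
def redHom {v v' : V} (hv : Hyp Q v v') : StV Q v →* (cp Q v v' ≃ₗ[F] cp Q v v') :=
  (LinearMap.GeneralLinearGroup.generalLinearEquiv F (cp Q v v')).toMonoidHom.comp (redEnd hv).toHomUnits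

theorem redHom_apply {v v' : V} (hv : Hyp Q v v') (g : StV Q v) (c : cp Q v v') :
    ((redHom hv g c : cp Q v v') : V) = proj Q v v' (g.1 c) := rfl

theorem redHom_mem {v v' : V} (hv : Hyp Q v v') (g : StV Q v) : redHom hv g ∈ O (res Q (cp Q v v')) := by
  intro c
  show Q ((redHom hv g c : cp Q v v') : V) = Q (c : V)
  have h1 := map_cp g.2 c.2
  have h2 : Q (g.1 (c : V)) = Q (c : V) := g.2.1 _
  have h3 : polar Q (proj Q v v' (g.1 c)) v = 0 := by rw [polar_comm]; exact polar_proj_left hv _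
  rw [redHom_apply, ← h2, h1, Q_add, QuadraticMap.map_smul, hv.left, polar_smul_right, h3, ← h1]
  simp

theorem siegel_mem_StV {v w : V} (hv : Q v = 0) (hw : polar Q v w = 0) : siegel Q v w hv hw ∈ StV Q v :=
  ⟨siegel_mem_O _ _, siegel_fix hv hw (polar_self_of_sing hv) (by rw [polar_comm]; exact hw)⟩

/-- the kernel consists of Siegel transformations -/
theorem redHom_eq_one_iff {v v' : V} (hQ : Nondeg Q) (hv : Hyp Q v v') (g : StV Q v) :
    redHom hv g = 1 ↔ ∃ (w : V) (hw : polar Q v w = 0), w ∈ cp Q v v' ∧ g.1 = siegel Q v w hv.left hw := by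
  constructor
  · intro h
    have h1 : ∀ c ∈ cp Q v v', proj Q v v' (g.1 c) = c := by
      intro c hc
      have := congrArg (fun f : cp Q v v' ≃ₗ[F] cp Q v v' => ((f ⟨c, hc⟩ : cp Q v v') : V)) h
      exact this
    obtain ⟨w, hw, e⟩ := Cfsg.Agent.ClassicalGeometry.OrthAut2.eq_siegel hQ hv.left hv.left_ne g.2.1 g.2.2 (by
      intro x hx
      obtain ⟨y, a, hy, rfl⟩ : ∃ (y : V) (a : F), y ∈ cp Q v v' ∧ x = y + a • v :=
        ⟨proj Q v v' x, polar Q v' x, proj_mem_cp hv x, by simp only [LieClassical.OrthTrans.proj, hx]; module⟩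
      have h2 := map_cp g.2 hy
      rw [h1 y hy] at h2
      refine ⟨polar Q v' (g.1 y), ?_⟩
      have h3 : g.1 (y + a • v) = g.1 y + a • v := by rw [map_add, map_smul, g.2.2]
      rw [h3]
      generalize polar Q v' (g.1 y) = c at h2
      rw [h2]
      module)
    have hw' : w = proj Q v v' w + polar Q v' w • v := by simp only [LieClassical.OrthTrans.proj, hw]; module
    refine ⟨proj Q v v' w, polar_proj_left hv w, proj_mem_cp hv w, ?_⟩
    rw [e]
    ext x
    rw [siegel_apply, siegel_apply]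
    have h4 : Q w = Q (proj Q v v' w) := by
      rw [hw', Q_add, QuadraticMap.map_smul, hv.left, polar_smul_right, proj_add_smul hv, proj_of_mem (proj_mem_cp hv w),
        polar_comm Q _ v, polar_proj_left hv]
      simp
    have h5 : polar Q w x = polar Q (proj Q v v' w) x + polar Q v' w * polar Q v x := by
      rw [hw', polar_add_left, polar_smul_left, proj_add_smul hv, proj_of_mem (proj_mem_cp hv w), polar_add_right,
        polar_smul_right, (mem_cp.1 (proj_mem_cp hv w)).2, hv.pair']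
      simp
    rw [h4, h5]
    nth_rewrite 1 [hw']
    module
  · rintro ⟨w, hw, hwC, e⟩
    apply LinearEquiv.ext
    intro c
    apply Subtype.ext
    rw [redHom_apply, e, siegel_apply, (mem_cp.1 c.2).1]
    have : (c : V) + (0 : F) • w - polar Q w c • v - (Q w * 0) • v = c + (-polar Q w c) • v := by module
    rw [this, proj_add_smul hv, proj_of_mem c.2]
    rfl

/-- the group induced on `v^⊥ / v` -/
def redG {v v' : V} (hv : Hyp Q v v') (P : Subgroup (V ≃ₗ[F] V)) : Subgroup (cp Q v v' ≃ₗ[F] cp Q v v') :=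
  (P.subgroupOf (StV Q v)).map (redHom hv)

theorem mem_redG {v v' : V} (hv : Hyp Q v v') {P : Subgroup (V ≃ₗ[F] V)} (hP : P ≤ StV Q v) {k : cp Q v v' ≃ₗ[F] cp Q v v'} :
    k ∈ redG hv P ↔ ∃ g ∈ P, ∀ c : cp Q v v', ((k c : cp Q v v') : V) = proj Q v v' (g c) := by
  constructor
  · rintro ⟨g, hg, rfl⟩
    exact ⟨g.1, hg, fun c => redHom_apply hv g c⟩
  · rintro ⟨g, hg, h⟩
    refine ⟨⟨g, hP hg⟩, hg, ?_⟩
    apply LinearEquiv.ext
    intro c
    apply Subtype.ext
    rw [redHom_apply, h]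

theorem redG_le {v v' : V} (hv : Hyp Q v v') {P : Subgroup (V ≃ₗ[F] V)} : redG hv P ≤ O (res Q (cp Q v v')) := by
  rintro _ ⟨g, -, rfl⟩
  exact redHom_mem hv g

theorem redG_pgroup {p : ℕ} {v v' : V} (hv : Hyp Q v v') {P : Subgroup (V ≃ₗ[F] V)} (hp : IsPGroup p P) :
    IsPGroup p (redG hv P) :=
  (hp.comap_subtype (K := StV Q v)).map (redHom hv)

theorem siegel_inj {v v' w w' : V} (hv : Hyp Q v v') (hw : polar Q v w = 0) (hw' : polar Q v w' = 0) (hwC : w ∈ cp Q v v')
    (hwC' : w' ∈ cp Q v v') (e : siegel Q v w hv.left hw = siegel Q v w' hv.left hw') : w = w' := by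
  have h1 := congrArg (fun g : V ≃ₗ[F] V => g v') e
  simp only [siegel_apply, hv.pair, one_smul, mul_one] at h1
  have h2 : ∀ w ∈ cp Q v v', proj Q v v' (v' + w - polar Q w v' • v - Q w • v) = w := by
    intro w hw
    have h3 : v' + w - polar Q w v' • v - Q w • v = (w + v') + (-(polar Q w v' + Q w)) • v := by module
    rw [h3, proj_add_smul hv]
    obtain ⟨h4, h5⟩ := mem_cp.1 hw
    simp only [LieClassical.OrthTrans.proj, polar_add_right, h4, h5, hv.pair, hv.polar_right]
    module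
  have h3 := congrArg (proj Q v v') h1
  rwa [h2 w hwC, h2 w' hwC'] at h3

/-- **the orders of the kernel and the image** -/
theorem card_red {v v' : V} (hQ : Nondeg Q) (hv : Hyp Q v v') {P : Subgroup (V ≃ₗ[F] V)} (hP : P ≤ StV Q v) :
    Nat.card P = Nat.card {w : cp Q v v' // Has Q P v w} * Nat.card (redG hv P) := by
  obtain ⟨f, hf⟩ : ∃ f : P →* (cp Q v v' ≃ₗ[F] cp Q v v'), f = (redHom hv).comp (Subgroup.inclusion hP) := ⟨_, rfl⟩
  have h1 : Nat.card f.ker * f.ker.index = Nat.card P := Subgroup.card_mul_index _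
  rw [Subgroup.index_ker] at h1
  have h2 : f.range = redG hv P := by
    ext k
    constructor
    · rintro ⟨g, rfl⟩
      exact ⟨⟨g, hP g.2⟩, g.2, by rw [hf]; rfl⟩
    · rintro ⟨g, hg, rfl⟩
      exact ⟨⟨g.1, hg⟩, by rw [hf]; rfl⟩
  have h3 : Nat.card {w : cp Q v v' // Has Q P v w} = Nat.card f.ker := by
    let φ : {w : cp Q v v' // Has Q P v w} → f.ker := fun w =>
      ⟨⟨siegel Q v w.1 hv.left w.2.2.1, w.2.2.2⟩, by
        rw [MonoidHom.mem_ker, hf]
        exact (redHom_eq_one_iff hQ hv ⟨siegel Q v w.1 hv.left w.2.2.1, _⟩).2 ⟨w.1, w.2.2.1, w.1.2, rfl⟩⟩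
    refine Nat.card_eq_of_bijective φ ⟨?_, ?_⟩
    · intro a b hab
      have h4 : siegel Q v (a.1 : V) hv.left a.2.2.1 = siegel Q v (b.1 : V) hv.left b.2.2.1 :=
        congrArg (fun g : f.ker => ((g : P) : V ≃ₗ[F] V)) hab
      exact Subtype.ext (Subtype.ext (siegel_inj hv _ _ a.1.2 b.1.2 h4))
    · rintro ⟨⟨g, hg⟩, hk⟩
      rw [MonoidHom.mem_ker, hf] at hk
      obtain ⟨w, hw, hwC, e⟩ := (redHom_eq_one_iff hQ hv ⟨g, hP hg⟩).1 hk
      have e' : g = siegel Q v w hv.left hw := e
      refine ⟨⟨⟨w, hwC⟩, hv.left, hw, by rw [← e']; exact hg⟩, ?_⟩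
      apply Subtype.ext
      apply Subtype.ext
      exact e'.symm
  rw [← h1, h2, h3]

variable [FiniteDimensional F V]

theorem finrank_cp_eq {v v' : V} (hQ : Nondeg Q) (hv : Hyp Q v v') :
    Module.finrank F (cp Q v v') + 2 = Module.finrank F V := by
  have h1 := finrank_perp hQ (Submodule.span F {v, v'})
  have h2 : Module.finrank F (Submodule.span F {v, v'}) = 2 := by
    have hli : LinearIndependent F ![v, v'] := by
      rw [LinearIndependent.pair_iff]
      intro s t hst
      constructor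
      · have h3 := congrArg (polar Q v') hst
        rw [polar_add_right, polar_smul_right, polar_smul_right, hv.pair', hv.polar_right, polar_zero_right] at h3
        simpa using h3
      · have h3 := congrArg (polar Q v) hst
        rw [polar_add_right, polar_smul_right, polar_smul_right, hv.pair, hv.polar_left, polar_zero_right] at h3
        simpa using h3
    have h3 := finrank_span_eq_card hli
    rw [Matrix.range_cons, Matrix.range_cons, Matrix.range_empty, Set.union_empty, Set.singleton_union] at h3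
    simpa using h3
  show Module.finrank F (perp Q (Submodule.span F {v, v'})) + 2 = _
  omega

variable [Finite F]

/-- **a `p`-group of isometries fixes a singular vector** -/
theorem exists_sing_fixed {p : ℕ} [hp : Fact p.Prime] [CharP F p] (h2 : (2 : F) ≠ 0) (hQ : Nondeg Q)
    {P : Subgroup (V ≃ₗ[F] V)} (hP : P ≤ O Q) (hpP : IsPGroup p P) :
    P = ⊥ ∨ ∃ v : V, v ≠ 0 ∧ Q v = 0 ∧ ∀ g ∈ P, g v = v := by
  let Fx : Submodule F V :=
    { carrier := {x | ∀ g ∈ P, g x = x}
      add_mem' := fun {a b} ha hb g hg => by rw [map_add, ha g hg, hb g hg]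
      zero_mem' := fun g _ => map_zero g
      smul_mem' := fun c x hx g hg => by rw [map_smul, hx g hg] }
  by_cases hT : perp Q Fx = ⊥
  · left
    have h1 := finrank_perp hQ Fx
    rw [hT, finrank_bot] at h1
    have h3 : Fx = ⊤ := Submodule.eq_top_of_finrank_eq (by omega)
    rw [eq_bot_iff]
    intro g hg
    rw [Subgroup.mem_bot]
    apply LinearEquiv.ext
    intro x
    have : x ∈ Fx := by rw [h3]; trivial
    exact this g hg
  · right
    obtain ⟨x, hx, hx0, hfix⟩ := exists_fixed_mod hpP (T₁ := ⊥) (T₂ := perp Q Fx)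
      (by rintro g _ x hx; rw [Submodule.mem_bot] at hx ⊢; rw [hx, map_zero])
      (by
        intro g hg x hx
        rw [mem_perp] at hx ⊢
        intro w hw
        have h3 := hx w hw
        rwa [← polar_map (hP hg), hw g hg] at h3)
      (by rw [le_bot_iff]; exact hT)
    have hxF : x ∈ Fx := fun g hg => by
      have := hfix g hg
      rw [Submodule.mem_bot, sub_eq_zero] at this
      exact this
    refine ⟨x, fun h => hx0 (by rw [h]; exact Submodule.zero_mem _), ?_, hxF⟩
    have h3 := mem_perp.1 hx x hxF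
    rw [polar_self'] at h3
    exact (mul_eq_zero.1 h3).resolve_left h2

end Cfsg.Agent.H830.Hex

namespace Cfsg.Agent.H830.Hex

open QuadraticMap Cfsg.Agent.LieClassical.OrthCore Cfsg.Agent.LieClassical.OrthTrans
  Cfsg.Agent.H883.Sub Cfsg.Agent.H883.Root Cfsg.Agent.H916.QuadLemmas

universe u v

/-- **the order of a `p`-group of isometries in odd dimension** -/
theorem card_pgroup_le {F : Type u} [Field F] [Finite F] {p : ℕ} [hp : Fact p.Prime] [CharP F p] (h2 : (2 : F) ≠ 0) (m : ℕ) :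
    ∀ {V : Type v} [AddCommGroup V] [Module F V] [FiniteDimensional F V] {Q : QuadraticForm F V} (_ : Nondeg Q)
      (_ : Module.finrank F V = 2 * m + 1) {P : Subgroup (V ≃ₗ[F] V)} (_ : P ≤ O Q) (_ : IsPGroup p P),
      Nat.card P ≤ Nat.card F ^ (m * m) := by
  have hF : 0 < Nat.card F := Nat.card_pos
  induction m with
  | zero =>
    intro V _ _ _ Q hQ hd P hP hpP
    rcases exists_sing_fixed h2 hQ hP hpP with h | ⟨v, hv0, hv, -⟩
    · rw [h, Subgroup.card_bot]
      exact Nat.one_le_iff_ne_zero.2 (pow_pos hF _).ne'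
    · obtain ⟨v', hv'⟩ := exists_hyp hQ hv hv0
      have := finrank_cp_eq hQ hv'
      omega
  | succ m ih =>
    intro V _ _ _ Q hQ hd P hP hpP
    rcases exists_sing_fixed h2 hQ hP hpP with h | ⟨v, hv0, hv, hfix⟩
    · rw [h, Subgroup.card_bot]
      exact Nat.one_le_iff_ne_zero.2 (pow_pos hF _).ne'
    · obtain ⟨v', hv'⟩ := exists_hyp hQ hv hv0
      have h1 := finrank_cp_eq hQ hv'
      have h3 : P ≤ StV Q v := fun g hg => ⟨hP hg, hfix g hg⟩
      have h4 := card_red hQ hv' h3
      have h5 := ih (nondegOn_cp hQ hv').res (by omega) (redG_le hv') (redG_pgroup hv' hpP)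
      have hfin : Finite (cp Q v v') := Module.finite_of_finite F
      have h6 : Nat.card {w : cp Q v v' // Has Q P v w} ≤ Nat.card (cp Q v v') :=
        Nat.card_le_card_of_injective _ Subtype.val_injective
      have h7 : Nat.card (cp Q v v') = Nat.card F ^ Module.finrank F (cp Q v v') := Module.natCard_eq_pow_finrank
      have h8 : Module.finrank F (cp Q v v') = 2 * m + 1 := by omega
      rw [h7, h8] at h6
      calc Nat.card P = _ := h4
        _ ≤ Nat.card F ^ (2 * m + 1) * Nat.card F ^ (m * m) := Nat.mul_le_mul h6 h5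
        _ = Nat.card F ^ ((m + 1) * (m + 1)) := by rw [← pow_add]; congr 1; ring

end Cfsg.Agent.H830.Hex
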