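import Cfsg.Agent.H830.Rg.HexI

/-!
# S3691, `Ω₇(q)`: factorizations with a factor of order divisible by `q ^ 6` (helper830)

* `no_hex` : `H`, `K ≤ O Q` without common nontrivial classes, `q ^ 6 ∣ |H|`; then `K` does not contain Siegel
  transformations of all norms and an element of type `(3, 3, 1)`
* `no_hex_4` : the case `EY Q W ≤ K`, `dim W = 4`, and a Siegel transformation in `W^⊥`
-/

set_option autoImplicit false
set_option linter.unusedSectionVars false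

namespace Cfsg.Agent.H830.Hex

open QuadraticMap Cfsg.Agent.LieClassical.OrthCore Cfsg.Agent.LieClassical.OrthTrans
  Cfsg.Agent.H883.Sub Cfsg.Agent.H883.Root Cfsg.Agent.H916.QuadLemmas

variable {F V : Type*} [Field F] [AddCommGroup V] [Module F V] {Q : QuadraticForm F V}

theorem siegel_ne_one (hQ : Nondeg Q) {v w : V} (hv : Q v = 0) (hw : polar Q v w = 0) (hv0 : v ≠ 0)
    (hw0 : ∀ c : F, w ≠ c • v) : siegel Q v w hv hw ≠ 1 := by
  intro h
  obtain ⟨v', hv'⟩ := exists_hyp hQ hv hv0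
  have h1 := congrArg (fun g : V ≃ₗ[F] V => g v') h
  have h2 : siegel Q v w hv hw v' = v' := h1
  rw [siegel_apply, hv'.pair] at h2
  apply hw0 (polar Q w v' + Q w)
  have h3 : w = (v' + (1 : F) • w - polar Q w v' • v - (Q w * 1) • v) - v' + (polar Q w v' + Q w) • v := by module
  rw [h2, sub_self, zero_add] at h3
  exact h3

theorem Gen.ne_one (hQ : Nondeg Q) {u w u' w' : V} (h : Gen Q u w u' w') (hΔ : Dsc Q w w' ≠ 0) :
    siegel Q u w h.qu h.uw * siegel Q u' w' h.qu' h.u'w' ≠ 1 := by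
  intro he
  have hind : ∀ c : F, u ≠ c • u' := by
    intro l hl
    have hl0 : l ≠ 0 := by rintro rfl; exact h.u0 (by rw [hl, zero_smul])
    exact h.ind l⁻¹ (by rw [hl, smul_smul, inv_mul_cancel₀ hl0, one_smul])
  obtain ⟨y, hy1, hy2⟩ := exists_sep hQ hind
  have h1 := congrArg (fun g : V ≃ₗ[F] V => g y) he
  have h2 : siegel Q u w h.qu h.uw (siegel Q u' w' h.qu' h.u'w' y) = y := h1
  have h3 : siegel Q u' w' h.qu' h.u'w' y = y + (-polar Q w' y) • u' := by
    rw [siegel_apply, hy1]; module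
  have hwu' : polar Q w u' = 0 := by rw [polar_comm]; exact h.u'w
  rw [h3, map_add, map_smul, siegel_fix h.qu h.uw h.uu' hwu', siegel_apply, hy2] at h2
  have h4 : w = (polar Q w y + Q w) • u + polar Q w' y • u' := by
    have : w = (y + (1 : F) • w - polar Q w y • u - (Q w * 1) • u + (-polar Q w' y) • u') - y +
      ((polar Q w y + Q w) • u + polar Q w' y • u') := by module
    rw [h2, sub_self, zero_add] at this
    exact this
  generalize polar Q w y + Q w = a at h4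
  generalize polar Q w' y = b at h4
  apply hΔ
  have hw'u : polar Q u w' = 0 := h.uw'
  rw [Dsc, h4]
  simp only [Q_add, QuadraticMap.map_smul, polar_add_left, polar_smul_left, polar_smul_right, h.qu, h.qu', h.uu', hw'u, h.u'w']
  simp

theorem Has.gen_mem {K : Subgroup (V ≃ₗ[F] V)} {u w u' w' : V} (h : Gen Q u w u' w') (h1 : Has Q K u w) (h2 : Has Q K u' w') :
    siegel Q u w h.qu h.uw * siegel Q u' w' h.qu' h.u'w' ∈ K :=
  K.mul_mem h1.2.2 h2.2.2

variable [Finite F] [FiniteDimensional F V]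

/-- if `K` contains Siegel transformations of all norms, then `H` contains none with a nonsingular second vector -/
theorem hno_of {H K : Subgroup (V ≃ₗ[F] V)} (hG : Good Q) (h7 : Module.finrank F V = 7)
    (hdis : ∀ t ∈ E Q, ∀ h ∈ H, t * h * t⁻¹ ∈ K → h = 1)
    (hn : ∀ c : F, c ≠ 0 → ∃ e d : V, e ≠ 0 ∧ Has Q K e d ∧ Q d = c) :
    ∀ v w, v ≠ 0 → Has Q H v w → Q w = 0 := by
  rintro v w hv ⟨k1, k2, k3⟩
  by_contra hw
  obtain ⟨e, d, he, ⟨j1, j2, j3⟩, hd⟩ := hn _ hw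
  obtain ⟨g, hg, hgg⟩ := conj_one hG (by omega) hv he k1 k2 j1 j2 hw hd.symm
  have h4 := hdis g hg _ k3 (by rw [hgg]; exact j3)
  refine siegel_ne_one hG.nondeg k1 k2 hv (fun c hc => hw ?_) h4
  rw [hc, QuadraticMap.map_smul, k1, smul_zero]

/-- `K` does not contain long root elements -/
theorem no_root {H K : Subgroup (V ≃ₗ[F] V)} (hG : Good Q) (h7 : Module.finrank F V = 7) (h2 : (2 : F) ≠ 0)
    (hH : H ≤ O Q) (hc : Nat.card F ^ 6 ∣ Nat.card H)
    (hdis : ∀ t ∈ E Q, ∀ h ∈ H, t * h * t⁻¹ ∈ K → h = 1)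
    (hn : ∀ c : F, c ≠ 0 → ∃ e d : V, e ≠ 0 ∧ Has Q K e d ∧ Q d = c) {v u : V} (hv0 : v ≠ 0) (hu : Q u = 0)
    (hind : ∀ c : F, u ≠ c • v) (hK : Has Q K v u) : False := by
  obtain ⟨W₀, x, x', x₂, w, c, hX⟩ := exists_XD h2 hG.nondeg h7 hH hc (hno_of hG h7 hdis hn)
  have hx₂ := mem_cp.1 (hX.le hX.m₂)
  have hH2 := hX.has x₂ hX.m₂
  have hindx : ∀ c : F, x₂ ≠ c • x := by
    intro l hl
    have := hx₂.2
    rw [hl, polar_smul_right, hX.hv.pair'] at this
    have hl0 : l = 0 := by simpa using this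
    exact hX.n₂ (by rw [hl, hl0, zero_smul])
  obtain ⟨g, hg, e1, d, e2⟩ := trans_root hG (by omega) hX.hv.left (hX.qs _ hX.m₂) hx₂.1 hX.hv.left_ne hindx
    hK.1 hu hK.2.1 hv0 hind
  have k1 := hdis g hg _ hH2.2.2 (by
    have k2 : polar Q v (u + d • v) = 0 := by
      rw [polar_add_right, polar_smul_right, hK.2.1, polar_self_of_sing hK.1]; simp
    rw [siegel_conj' (E_le_O hg) hH2.1 hH2.2.1 hK.1 k2 e1 e2, siegel_add_self hK.1 hK.2.1 k2]
    exact hK.2.2)
  exact siegel_ne_one hG.nondeg hH2.1 hH2.2.1 hX.hv.left_ne hindx k1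

/-- **the contradiction** -/
theorem no_hex {H K : Subgroup (V ≃ₗ[F] V)} (hG : Good Q) (h7 : Module.finrank F V = 7) (h2 : (2 : F) ≠ 0)
    (hq : 5 < Nat.card F) (hH : H ≤ O Q) (hc : Nat.card F ^ 6 ∣ Nat.card H)
    (hdis : ∀ t ∈ E Q, ∀ h ∈ H, t * h * t⁻¹ ∈ K → h = 1)
    (hn : ∀ c : F, c ≠ 0 → ∃ e d : V, e ≠ 0 ∧ Has Q K e d ∧ Q d = c)
    (h3 : ∃ (u w u' w' : V) (h : Gen Q u w u' w'), Dsc Q w w' ≠ 0 ∧
      siegel Q u w h.qu h.uw * siegel Q u' w' h.qu' h.u'w' ∈ K) : False := by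
  have hno := hno_of hG h7 hdis hn
  obtain ⟨u, w, u', w', h, hΔ, hK⟩ := h3
  obtain ⟨t, ht, htH⟩ := both331 hG h7 h2 hq hH hc hno h hΔ
  have h4 := hdis t⁻¹ ((E Q).inv_mem ht) _ htH (by
    have : t⁻¹ * (t * (siegel Q u w h.qu h.uw * siegel Q u' w' h.qu' h.u'w') * t⁻¹) * t⁻¹⁻¹ =
      siegel Q u w h.qu h.uw * siegel Q u' w' h.qu' h.u'w' := by group
    rw [this]
    exact hK)
  apply h.ne_one hG.nondeg hΔ
  have h5 := congrArg (fun x => t⁻¹ * x * t) h4
  simpa [mul_assoc] using h5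

/-- **the second factor fixes a nondegenerate 4-space** -/
theorem no_hex_4 {H K : Subgroup (V ≃ₗ[F] V)} (hG : Good Q) (h7 : Module.finrank F V = 7) (h2 : (2 : F) ≠ 0)
    (hq : 5 < Nat.card F) (hH : H ≤ O Q) (hc : Nat.card F ^ 6 ∣ Nat.card H)
    (hdis : ∀ t ∈ E Q, ∀ h ∈ H, t * h * t⁻¹ ∈ K → h = 1) {W : Submodule F V} (hW : NondegOn Q W)
    (hW4 : Module.finrank F W = 4) (hE : EY Q W ≤ K) {e : V} (heW : e ∈ W) (he : Q e = 0) (he0 : e ≠ 0)
    {u w : V} (hu0 : u ≠ 0) (hu : u ∈ perp Q W) (hw : w ∈ perp Q W) (hQw : Q w ≠ 0) (hK : Has Q K u w) : False := by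
  have hN := hW.res
  obtain ⟨e', he'⟩ := exists_hyp (x := (⟨e, heW⟩ : W)) hN he (fun h0 => he0 (congrArg Subtype.val h0))
  have hd := finrank_cp_eq hN he'
  have hval : ∀ c : F, c ≠ 0 → ∃ d ∈ W, polar Q e d = 0 ∧ Q d = c := by
    intro c hc0
    obtain ⟨y, hy, hyc⟩ := H445.AH.exists_value_mem (Q := res Q W) (Y := cp (res Q W) ⟨e, heW⟩ e') (by
      have k1 : cp (res Q W) ⟨e, heW⟩ e' ⊓ perp (res Q W) (cp (res Q W) ⟨e, heW⟩ e') = ⊥ := by
        rw [eq_bot_iff]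
        rintro x ⟨hx1, hx2⟩
        exact nondegOn_cp hN he' x hx1 fun y hy => by rw [polar_comm]; exact mem_perp.1 hx2 y hy
      rw [k1, finrank_bot]
      omega) c hc0
    exact ⟨y, y.2, (mem_cp.1 hy).1, hyc⟩
  have hEY : ∀ {d : V}, d ∈ W → polar Q e d = 0 → Has Q K e d := fun hdW hd => EY_le_iff.1 hE e heW _ hdW he hd
  refine no_hex hG h7 h2 hq hH hc hdis ?_ ?_
  · intro c hc0
    obtain ⟨d, hdW, hed, hdc⟩ := hval c hc0
    exact ⟨e, d, he0, hEY hdW hed, hdc⟩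
  · obtain ⟨d, hdW, hed, hdc⟩ := hval 1 one_ne_zero
    have o1 : polar Q u e = 0 := by rw [polar_comm]; exact mem_perp.1 hu e heW
    have o2 : polar Q u d = 0 := by rw [polar_comm]; exact mem_perp.1 hu d hdW
    have o3 : polar Q e w = 0 := mem_perp.1 hw e heW
    have o4 : polar Q w d = 0 := by rw [polar_comm]; exact mem_perp.1 hw d hdW
    have h : Gen Q u w e d :=
      { qu := hK.1
        qu' := he
        uu' := o1
        uw := hK.2.1
        uw' := o2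
        u'w := o3
        u'w' := hed
        ind := by
          intro l hl
          apply he0
          refine hW e heW fun y hy => ?_
          rw [hl, polar_smul_left, polar_comm, mem_perp.1 hu y hy, smul_zero]
        u0 := hu0 }
    refine ⟨u, w, e, d, h, ?_, K.mul_mem hK.2.2 (hEY hdW hed).2.2⟩
    rw [Dsc, o4, hdc]
    have h4 : (4 : F) = 2 * 2 := by norm_num
    rw [h4]
    simp only [mul_zero, mul_one, zero_sub]
    exact neg_ne_zero.2 (mul_ne_zero (mul_ne_zero h2 h2) hQw)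

end Cfsg.Agent.H830.Hex
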